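import Cfsg.Agent.Lib.GSz.Tau
import Cfsg.Agent.Lib.Block.Twist

/-!
Glauberman's characterization of the Suzuki groups, odd primes: the case where `Z^#` is not a single
class of real elements.
-/

set_option autoImplicit false

open scoped ComplexConjugate Classical

namespace Cfsg.Lib.GSz

open Subgroup Cfsg.Lib.FT

variable {L G : Type*} [Group L] [Group G]

theorem const_of_prop [Fintype L] {K Z : Subgroup L} {f : K → ℂ} (hf : IsCharacter K f)
    {θ₀ : K → ℂ} (h : ∀ θ, IsIrrCharacter K θ → ¬ KerGe K Z θ →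
      θ₀ 1 * classInner θ f = θ 1 * classInner θ₀ f) {z : K} (hz : (z : L) ∈ Z) (hz1 : z ≠ 1) :
    θ₀ 1 * (f 1 - f z) = classInner θ₀ f * Nat.card K := by
  rw [hf.isClassFunction.apply_eq_sum_irr 1, hf.isClassFunction.apply_eq_sum_irr z,
    ← Finset.sum_sub_distrib, Finset.mul_sum]
  have e1 := sum_irr_one_mul (1 : K)
  have e2 := sum_irr_one_mul z
  rw [if_pos rfl] at e1
  rw [if_neg hz1] at e2
  rw [← sub_zero (Nat.card K : ℂ)]
  nth_rewrite 1 [← e1]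
  rw [← e2, ← Finset.sum_sub_distrib, Finset.mul_sum]
  refine Finset.sum_congr rfl fun θ _ => ?_
  by_cases hk : KerGe K Z θ.1
  · rw [hk z hz]; simp
  · have := h θ.1 θ.2 hk
    rw [hf.isGen.inner_symm θ.2.isGen]
    linear_combination (θ.1 1 - θ.1 z) * this

/-- the local hypotheses on `Z` -/
structure ZH (p : ℕ) (K Z : Subgroup L) (ι : K →* G) : Prop where
  le : Z ≤ K
  ne_bot : Z ≠ ⊥
  cent : ∀ z ∈ Z, ∀ k ∈ K, z * k = k * z
  idx : ∀ z : K, (z : L) ∈ Z → ¬ p ∣ (centralizer ({ι z} : Set G)).index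
  pair : ∀ x y : K, (x : L) ∈ Z → (y : L) ∈ Z → x ≠ 1 → y ≠ 1 → ∀ g : G, ∃ x' y' : K,
    (x' : L) ∈ Z ∧ (y' : L) ∈ Z ∧ IsConj (x : L) x' ∧ IsConj (y : L) y' ∧
      PRel p (ι (x' * y')) (g * ι x * g⁻¹ * ι y) ∧ PRel p (ι (x'⁻¹ * y')) (g * (ι x)⁻¹ * g⁻¹ * ι y)

variable {p : ℕ} [hp : Fact p.Prime] [Fintype L] [Fintype G] {K Z : Subgroup L} {ι : K →* G}
  [K.Normal] [Z.Normal]

omit [K.Normal] [Z.Normal] [Fintype L] hp in
theorem eq_one_of_apply [IsSimpleGroup G] {χ : G → ℂ} (hχ : IsIrrCharacter G χ) {g : G}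
    (hg : g ≠ 1) (e : χ g = χ 1) : χ = 1 := by
  apply hχ.eq_one_of_funKer_eq_top
  refine (hχ.isClassFunction.funKer_normal.eq_bot_or_eq_top).resolve_left fun hb => hg ?_
  have := hχ.isCharacter.mem_funKer.2 e
  rwa [hb, mem_bot] at this

namespace CH

variable (h : CH p K ι)
include h

omit [Z.Normal] in
theorem prop_of_orth {χ : G → ℂ} (hχ : IsIrrCharacter G χ) (h0 : InB0 p χ) {θ₀ θ : K → ℂ}
    (e : classInner (tau p K ι (indFun K θ₀ 1 • indFun K θ - indFun K θ 1 • indFun K θ₀)) χ = 0) :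
    θ₀ 1 * classInner θ (χ ∘ ι) = θ 1 * classInner θ₀ (χ ∘ ι) := by
  rw [inner_tau_irr _ hχ, if_pos h0, classInner_sub_left, classInner_smul_left,
    classInner_smul_left, h.inner_ind_rho _ hχ.isClassFunction,
    h.inner_ind_rho _ hχ.isClassFunction, indFun_one, indFun_one] at e
  have he : (K.index : ℂ) ≠ 0 := by exact_mod_cast K.index_ne_zero_of_finite
  apply mul_left_cancel₀ he
  linear_combination e

omit [Z.Normal] in
theorem const_of_orth {χ : G → ℂ} (hχ : IsIrrCharacter G χ) (h0 : InB0 p χ) {θ₀ : K → ℂ}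
    (e : ∀ ψ ∈ indSet K Z ⊥,
      classInner (tau p K ι (indFun K θ₀ 1 • ψ - ψ 1 • indFun K θ₀)) χ = 0)
    {z : K} (hz : (z : L) ∈ Z) (hz1 : z ≠ 1) :
    θ₀ 1 * (χ 1 - χ (ι z)) = classInner θ₀ (χ ∘ ι) * Nat.card K := by
  have := const_of_prop (hχ.isCharacter.comp ι) (θ₀ := θ₀) (fun θ hθ hk =>
    h.prop_of_orth hχ h0 (e _ (mem_indSet.2 ⟨θ, hθ, kerGe_bot θ, hk, rfl⟩))) hz hz1
  simpa using this

omit hp [Fintype G] [Z.Normal] in
theorem irr_of_mem {φ : L → ℂ} (hφ : φ ∈ indSet K K ⊥) : IsIrrCharacter L φ := by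
  obtain ⟨θ, hθ, -, hk, rfl⟩ := mem_indSet.1 hφ
  exact irr_ind_of_frobenius K h.frob hθ fun e => hk ((kerGe_self_iff hθ).2 e)

omit [Fintype G] [Z.Normal] [K.Normal] in
theorem deg_of_mem {φ : L → ℂ} (hφ : φ ∈ indSet K Z ⊥) :
    ∃ k : ℕ, φ 1 = K.index * (p : ℂ) ^ k := by
  obtain ⟨m, hm⟩ := IsPGroup.iff_card.mp h.pK
  obtain ⟨θ, hθ, -, -, rfl⟩ := mem_indSet.mp hφ
  obtain ⟨n, -, hn⟩ := hθ.exists_one_eq
  obtain ⟨k, -, hk⟩ := (Nat.dvd_prime_pow hp.out).mp (hm ▸ hθ.degree_dvd_card hn)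
  exact ⟨k, by rw [indFun_one, hn, hk]; simp⟩

omit [Fintype L] [K.Normal] in
theorem eq_one_of_const [IsSimpleGroup G] (hZ : ZH p K Z ι) {x y : K} (hx : (x : L) ∈ Z)
    (hy : (y : L) ∈ Z) (hx1 : x ≠ 1) (hy1 : y ≠ 1) (hxy : ¬ IsConj (x : L)⁻¹ y)
    {χ : G → ℂ} (hχ : IsIrrCharacter G χ) (h0 : InB0 p χ) {a : ℂ}
    (ha : ∀ z : K, (z : L) ∈ Z → z ≠ 1 → χ (ι z) = a) : χ = 1 := by
  have e := hχ.sum_conj_mul (ι x) (ι y)
  have e2 : ∀ g, χ (g * ι x * g⁻¹ * ι y) = a := by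
    intro g
    obtain ⟨x', y', hx', hy', c1, c2, r, -⟩ := hZ.pair x y hx hy hx1 hy1 g
    have hn : x' * y' ≠ 1 := fun e => hxy (by
      have e' : (x' : L)⁻¹ = y' := by
        rw [inv_eq_iff_mul_eq_one]; exact congrArg Subtype.val e
      obtain ⟨c, hc⟩ := isConj_iff.1 c1
      refine IsConj.trans (isConj_iff.2 ⟨c, ?_⟩) c2.symm
      rw [← e', ← hc]; group)
    rw [h.apply_eq hχ h0 hn r, ha _ (Z.mul_mem hx' hy') hn]
  rw [Finset.sum_congr rfl fun g _ => e2 g, ha x hx hx1, ha y hy hy1, Finset.sum_const,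
    Finset.card_univ, nsmul_eq_mul, ← Nat.card_eq_fintype_card] at e
  have hne : a ≠ 0 := ha x hx hx1 ▸ h0.ne_zero_of_index hχ.isClassFunction (hZ.idx x hx)
  refine eq_one_of_apply hχ (h.ne_one hx1) ?_
  rw [ha x hx hx1]
  apply mul_left_cancel₀ (mul_ne_zero (natCard_complex_ne_zero G) hne)
  linear_combination -e

theorem caseA [IsSimpleGroup G] (hG : ¬ IsMulCommutative G) (hZ : ZH p K Z ι) {x y : K}
    (hx : (x : L) ∈ Z) (hy : (y : L) ∈ Z) (hx1 : x ≠ 1) (hy1 : y ≠ 1)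
    (hxy : ¬ IsConj (x : L)⁻¹ y) (hc : Coherent (indSet K Z ⊥) (tau p K ι)) : False := by
  obtain ⟨ν, hν⟩ := hc
  set X := indSet K Z (⊥ : Subgroup L) with hX
  have hXS : X ⊆ indSet K K ⊥ := indSet_subset_self
  have hcomb : ∀ φ ∈ X, ∀ ψ ∈ X,
      tau p K ι (φ 1 • ψ - ψ 1 • φ) = φ 1 • ν ψ - ψ 1 • ν φ := by
    intro φ hφ ψ hψ
    rw [← hν.agree _ (deg_comb_mem_zsp (mem_zsp hψ) (mem_zsp hφ) (indSet_char hψ).isGen
      (indSet_char hφ).isGen) (by simp [mul_comm]), map_sub, map_smul, map_smul]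
  obtain ⟨φ₀, hφ₀⟩ := indSet_nonempty (K := K) (H := Z) (M := ⊥) hZ.le bot_le
    (fun e => hZ.ne_bot (le_bot_iff.1 e))
  have key : ∀ χ : IrrCharacter G, InB0 p χ.1 → χ ≠ ⟨1, isIrrCharacter_one⟩ →
      ∃ ψ ∈ X, ‖ν ψ 1‖ = irrDeg χ := by
    intro χ h0 h1
    by_contra hn
    have horth : ∀ ψ ∈ X, classInner (ν ψ) χ = 0 := by
      intro ψ hψ
      by_contra hne
      obtain ⟨η, hη, e⟩ := (hν.gen ψ hψ).eq_of_inner_self_one
        (by rw [hν.isom ψ hψ ψ hψ, (h.irr_of_mem (hXS hψ)).inner_self])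
      have : η = χ := by
        by_contra c
        rcases e with e | e
        · exact hne (by rw [e, hη.inner_of_ne χ.2 c])
        · exact hne (by rw [e, classInner_neg_left, hη.inner_of_ne χ.2 c, neg_zero])
      refine hn ⟨ψ, hψ, ?_⟩
      rcases e with e | e <;> simp [e, this, coe_irrDeg]
    obtain ⟨θ₀, hθ₀, -, -, rfl⟩ := mem_indSet.1 hφ₀
    refine h1 (Subtype.ext (h.eq_one_of_const hZ hx hy hx1 hy1 hxy χ.2 h0
      (a := χ.1 1 - classInner θ₀ (χ.1 ∘ ι) * Nat.card K / θ₀ 1) fun z hz hz1 => ?_))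
    have := h.const_of_orth χ.2 h0 (θ₀ := θ₀) (Z := Z) (fun ψ hψ => by
      rw [hcomb _ hφ₀ ψ hψ, classInner_sub_left, classInner_smul_left, classInner_smul_left,
        horth ψ hψ, horth _ hφ₀]; simp) hz hz1
    have hn := hθ₀.one_ne_zero
    field_simp
    linear_combination -this
  have key2 : ∀ χ χ' : IrrCharacter G, InB0 p χ.1 → χ ≠ ⟨1, isIrrCharacter_one⟩ →
      InB0 p χ'.1 → χ' ≠ ⟨1, isIrrCharacter_one⟩ →
      ∃ a b : ℕ, p ^ a * irrDeg χ = p ^ b * irrDeg χ' := by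
    intro χ χ' h0 h1 h0' h1'
    obtain ⟨ψ, hψ, e⟩ := key χ h0 h1
    obtain ⟨ψ', hψ', e'⟩ := key χ' h0' h1'
    obtain ⟨a, ha⟩ := h.deg_of_mem hψ'
    obtain ⟨b, hb⟩ := h.deg_of_mem hψ
    have t := congrFun (hcomb ψ' hψ' ψ hψ) 1
    rw [h.isomOn.map_one _ (deg_comb_mem_zsp (mem_zsp (hXS hψ)) (mem_zsp (hXS hψ'))
      (indSet_char hψ).isGen (indSet_char hψ').isGen) (by simp [mul_comm])] at t
    simp only [Pi.sub_apply, Pi.smul_apply, smul_eq_mul] at t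
    have t2 := congrArg norm (sub_eq_zero.1 t.symm)
    rw [norm_mul, norm_mul, e, e', ha, hb] at t2
    simp only [norm_mul, Complex.norm_natCast, norm_pow] at t2
    have he : (K.index : ℝ) ≠ 0 := by exact_mod_cast K.index_ne_zero_of_finite
    refine ⟨a, b, ?_⟩
    have : ((p : ℝ) ^ a * irrDeg χ) = p ^ b * irrDeg χ' := by
      apply mul_left_cancel₀ he; linear_combination t2
    exact_mod_cast this
  have hd : p ∣ Nat.card G := by
    obtain ⟨n, hn⟩ := h.pow x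
    obtain ⟨k, -, hk⟩ := (Nat.dvd_prime_pow hp.out).1 (orderOf_dvd_of_pow_eq_one hn)
    have hk0 : k ≠ 0 := by
      rintro rfl; exact h.ne_one hx1 (orderOf_eq_one_iff.1 (by simpa using hk))
    exact (dvd_pow_self p hk0).trans (hk ▸ orderOf_dvd_natCard _)
  have hsum := pb0_clsFun_apply (p := p) (ι x) 1
  have hz := h.col_iota hx1 1
  rw [map_one, clsFun_of_not_isConj (fun e => hx1 (Subtype.ext (by simpa using e.symm)))] at hz
  rw [hz] at hsum
  set B := Finset.univ.filter (fun χ : IrrCharacter G => InB0 p χ.1) with hB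
  let o : IrrCharacter G := ⟨1, isIrrCharacter_one⟩
  have ho : o ∈ B := Finset.mem_filter.2 ⟨Finset.mem_univ _, inB0_one⟩
  rw [← Finset.add_sum_erase _ _ ho] at hsum
  have hex : (B.erase o).Nonempty := by
    rw [Finset.nonempty_iff_ne_empty]
    intro e
    rw [e] at hsum
    simp [o] at hsum
  obtain ⟨χ₁, hχ₁⟩ := hex
  have m1 := Finset.mem_erase.1 hχ₁
  have b1 : InB0 p χ₁.1 := (Finset.mem_filter.1 m1.2).2
  obtain ⟨q, hq, hqd, hqp⟩ : ∃ q, q.Prime ∧ q ∣ irrDeg χ₁ ∧ q ≠ p := by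
    by_contra hn
    push Not at hn
    exact b1.irrDeg_ne_pow hG hd m1.1 _
      (Nat.eq_prime_pow_of_unique_prime_dvd (irrDeg_pos χ₁).ne' fun {q} hq hqd => hn q hq hqd)
  have hall : ∀ χ ∈ B.erase o, ∃ c : ℕ, χ.1 1 = q * c := by
    intro χ hχ
    have m := Finset.mem_erase.1 hχ
    obtain ⟨a, b, e⟩ := key2 χ₁ χ b1 m1.1 (Finset.mem_filter.1 m.2).2 m.1
    have : q ∣ p ^ b * irrDeg χ := e ▸ hqd.mul_left _
    obtain ⟨c, hc⟩ := ((Nat.coprime_primes hq hp.out).2 hqp).pow_right b |>.dvd_of_dvd_mul_left this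
    exact ⟨c, by rw [coe_irrDeg, hc]; simp⟩
  choose! c hc using hall
  have hq0 : (q : ℂ) ≠ 0 := by exact_mod_cast hq.ne_zero
  have hint : IsIntegral ℤ (((-1 : ℤ) : ℂ) / ((q : ℤ) : ℂ)) := by
    have : (((-1 : ℤ) : ℂ) / ((q : ℤ) : ℂ)) = ∑ χ ∈ B.erase o, conj (χ.1 (ι x)) * c χ := by
      rw [Finset.sum_congr rfl fun χ hχ => by rw [hc χ hχ]] at hsum
      simp only [o, Pi.one_apply, map_one, mul_one] at hsum
      push_cast
      rw [div_eq_iff hq0, Finset.sum_mul]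
      rw [Finset.sum_congr rfl (g := fun χ => conj (χ.1 (ι x)) * (q * c χ)) fun χ _ => by ring]
      linear_combination hsum
    rw [this]
    exact IsIntegral.sum _ fun χ _ => (χ.2.isCharacter.conj.isIntegral _).mul
      (isIntegral_natCast _)
  have := int_dvd_of_isIntegral_div (by exact_mod_cast hq.ne_zero) hint
  rw [dvd_neg, Int.natCast_dvd_ofNat] at this
  exact hq.one_lt.ne' (Nat.dvd_one.1 this)

end CH

end Cfsg.Lib.GSz
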