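import Cfsg.Agent.Lib.GSz.CaseA
import Cfsg.Agent.Lib.BSW.Local

/-!
Glauberman's characterization of the Suzuki groups, odd primes: the case where `K` is abelian and
`Z^#` is a single class; the conclusion for odd primes.
-/

set_option autoImplicit false

open scoped ComplexConjugate Classical

namespace Cfsg.Lib.GSz

open Subgroup Cfsg.Lib.FT

variable {L G : Type*} [Group L] [Group G]
variable {p : ℕ} [hp : Fact p.Prime] [Fintype L] [Fintype G] {K Z : Subgroup L} {ι : K →* G}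
  [K.Normal] [Z.Normal]

namespace CH

variable (h : CH p K ι)
include h

omit [Z.Normal] in
theorem card_le_of_orth [IsSimpleGroup G] (hK : ∀ a b : K, a * b = b * a)
    {χ : IrrCharacter G} (h0 : InB0 p χ.1) (h1 : χ ≠ ⟨1, isIrrCharacter_one⟩) {φ : L → ℂ}
    (hφ : φ ∈ indSet K Z ⊥)
    (e : ∀ ψ ∈ indSet K Z ⊥, classInner (tau p K ι (φ 1 • ψ - ψ 1 • φ)) χ = 0)
    {z : K} (hz : (z : L) ∈ Z) (hz1 : z ≠ 1) {v : ℤ} (hv : χ.1 (ι z) = v) :
    (Nat.card K : ℤ) ≤ irrDeg χ - v := by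
  obtain ⟨θ₀, hθ₀, -, -, rfl⟩ := mem_indSet.1 hφ
  have t := h.const_of_orth χ.2 h0 e hz hz1
  obtain ⟨m, hm⟩ := hθ₀.isCharacter.inner_nat (χ.2.isCharacter.comp ι)
  rw [hθ₀.one_eq_one_of_comm hK, one_mul, hm, hv, coe_irrDeg] at t
  have t' : (irrDeg χ : ℤ) - v = m * Nat.card K := by exact_mod_cast t
  have hm0 : m ≠ 0 := by
    rintro rfl
    refine h1 (Subtype.ext (eq_one_of_apply χ.2 (h.ne_one hz1) ?_))
    rw [hv, coe_irrDeg]
    have : (v : ℤ) = irrDeg χ := by simp at t'; omega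
    rw [this]; simp
  rw [t']
  have : (1 : ℤ) ≤ m := by exact_mod_cast Nat.one_le_iff_ne_zero.2 hm0
  nlinarith [Nat.cast_nonneg (α := ℤ) (Nat.card K)]

theorem deg_bound [IsSimpleGroup G] (hp2 : p ≠ 2) (hZ : ZH p K Z ι)
    (hK : ∀ a b : K, a * b = b * a) {x : K} (hx : (x : L) ∈ Z) (hx1 : x ≠ 1)
    (hcl : ∀ z : K, (z : L) ∈ Z → z ≠ 1 → IsConj (x : L) z)
    (v : IrrCharacter G → ℤ) (hv : ∀ χ, χ.1 (ι x) = v χ)
    {χ : IrrCharacter G} (h0 : InB0 p χ.1) (h1 : χ ≠ ⟨1, isIrrCharacter_one⟩) :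
    (Nat.card K : ℤ) ≤ irrDeg χ - v χ ∨ (Nat.card K : ℤ) + 6 ≤ 3 * (irrDeg χ - v χ) := by
  obtain ⟨φ₀, hφ₀⟩ := indSet_nonempty (K := K) (H := Z) (M := ⊥) hZ.le bot_le
    (fun e => hZ.ne_bot (le_bot_iff.1 e))
  by_cases hKZ : K ≤ Z
  · left
    obtain ⟨θ₀, hθ₀, -, hk₀, rfl⟩ := mem_indSet.1 hφ₀
    have hin : ∀ θ, IsIrrCharacter K θ → ¬ KerGe K Z θ →
        (Nat.card K : ℂ) * classInner θ (χ.1 ∘ ι) = irrDeg χ - v χ := by
      intro θ hθ hk
      have hne : θ ≠ 1 := fun e => hk (e ▸ kerGe_one)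
      have e0 := card_mul_classInner θ 1
      rw [hθ.inner_of_ne isIrrCharacter_one hne, mul_zero,
        ← Finset.add_sum_erase _ _ (Finset.mem_univ 1), hθ.one_eq_one_of_comm hK] at e0
      rw [card_mul_classInner, ← Finset.add_sum_erase _ _ (Finset.mem_univ 1),
        hθ.one_eq_one_of_comm hK, Finset.sum_congr rfl (g := fun z => v χ * (θ z * conj ((1 : K → ℂ) z)))
        (fun z hz => by
          rw [Function.comp_apply, ← χ.2.isClassFunction.eq_of_isConj ((h.fus x z).2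
            (hcl z (hKZ z.2) (Finset.ne_of_mem_erase hz))), hv]
          simp [mul_comm]), ← Finset.mul_sum]
      simp only [Function.comp_apply, map_one, coe_irrDeg, Pi.one_apply, mul_one, one_mul,
        Complex.conj_natCast] at e0 ⊢
      linear_combination -(v χ) * e0
    refine h.card_le_of_orth hK h0 h1 hφ₀ (fun ψ hψ => ?_) hx hx1 (hv χ)
    obtain ⟨θ, hθ, -, hk, rfl⟩ := mem_indSet.1 hψ
    rw [inner_tau_irr _ χ.2, if_pos h0, classInner_sub_left, classInner_smul_left,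
      classInner_smul_left, h.inner_ind_rho _ χ.2.isClassFunction,
      h.inner_ind_rho _ χ.2.isClassFunction, indFun_one, indFun_one,
      hθ.one_eq_one_of_comm hK, hθ₀.one_eq_one_of_comm hK,
      mul_left_cancel₀ (natCard_complex_ne_zero K) ((hin θ hθ hk).trans (hin θ₀ hθ₀ hk₀).symm),
      sub_self]
  obtain ⟨φ₁, hφ₁⟩ := indSet_nonempty (K := K) (H := K) (M := Z) le_rfl hZ.le hKZ
  have hS1 : φ₁ ∈ indSet K K ⊥ := indSet_subset_self hφ₁
  have hX1 : φ₁ ∉ indSet K Z ⊥ := fun e => by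
    obtain ⟨-, -, z, hz, hn⟩ := (mem_indSet_iff hZ.le bot_le).1 e
    exact hn (((mem_indSet_iff le_rfl hZ.le).1 hφ₁).2.1 z hz)
  have hdeg : ∀ φ ∈ indSet K K (⊥ : Subgroup L), φ 1 = K.index := by
    intro φ hφ
    obtain ⟨θ, hθ, -, -, rfl⟩ := mem_indSet.1 hφ
    rw [indFun_one, hθ.one_eq_one_of_comm hK, mul_one]
  obtain ⟨ε, μ, hε, hμ, hinj, hτ⟩ := pf1_4 (indSet K K ⊥) (fun φ hφ => h.irr_of_mem hφ)
    (fun φ hφ ψ hψ => by rw [hdeg φ hφ, hdeg ψ hψ])
    (Finset.one_lt_card.2 ⟨φ₀, indSet_subset_self hφ₀, φ₁, hS1, fun e => hX1 (e ▸ hφ₀)⟩) h.isomOn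
  have hout : ∀ χ : IrrCharacter G, InB0 p χ.1 → χ ≠ ⟨1, isIrrCharacter_one⟩ →
      (∀ ψ ∈ indSet K Z ⊥, μ ψ ≠ χ.1) → (Nat.card K : ℤ) ≤ irrDeg χ - v χ := by
    intro χ h0 h1 hn
    refine h.card_le_of_orth hK h0 h1 hφ₀ (fun ψ hψ => ?_) hx hx1 (hv χ)
    have s0 := indSet_subset_self hφ₀
    have s1 := indSet_subset_self hψ
    rw [hdeg _ s0, hdeg _ s1, ← smul_sub, map_smul, hτ ψ s1 φ₀ s0, classInner_smul_left,
      ← Int.cast_smul_eq_zsmul ℂ, classInner_smul_left, classInner_sub_left,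
      (hμ ψ s1).inner_of_ne χ.2 (hn ψ hψ), (hμ φ₀ s0).inner_of_ne χ.2 (hn φ₀ hφ₀)]
    simp
  by_cases hn : ∀ ψ ∈ indSet K Z ⊥, μ ψ ≠ χ.1
  · exact Or.inl (hout χ h0 h1 hn)
  right
  push Not at hn
  obtain ⟨ψ, hψ, hψχ⟩ := hn
  have s1 := indSet_subset_self hψ
  have hne : μ ψ ≠ μ φ₁ := fun e => hX1 (hinj s1 hS1 e ▸ hψ)
  let χ₁ : IrrCharacter G := ⟨μ φ₁, hμ φ₁ hS1⟩
  have hε0 : (ε : ℂ) ≠ 0 := by rcases hε with rfl | rfl <;> simp
  have hin : classInner (tau p K ι (ψ - φ₁)) (μ φ₁) ≠ 0 := by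
    rw [hτ ψ s1 φ₁ hS1, ← Int.cast_smul_eq_zsmul ℂ, classInner_smul_left, classInner_sub_left,
      (hμ ψ s1).inner_of_ne (hμ φ₁ hS1) hne, (hμ φ₁ hS1).inner_self]
    simpa using hε0
  have b1 : InB0 p χ₁.1 := by
    by_contra c
    exact hin (by rw [inner_tau_irr _ (hμ φ₁ hS1), if_neg c])
  have n1 : χ₁ ≠ ⟨1, isIrrCharacter_one⟩ := by
    intro e
    have e' : μ φ₁ = 1 := congrArg Subtype.val e
    apply hin
    have t : ∀ φ ∈ indSet K K (⊥ : Subgroup L), classInner φ (rho K ι 1) = 0 := by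
      intro φ hφ
      obtain ⟨θ, hθ, -, hk, rfl⟩ := mem_indSet.1 hφ
      rw [h.inner_ind_rho _ isClassFunction_one]
      exact hθ.inner_of_ne isIrrCharacter_one fun e => hk ((kerGe_self_iff hθ).2 e)
    rw [e', inner_tau_irr _ isIrrCharacter_one, if_pos inB0_one, classInner_sub_left, t ψ s1,
      t φ₁ hS1, sub_self]
  have k1 := hout χ₁ b1 n1 fun φ hφ e => hX1 (hinj (indSet_subset_self hφ) hS1 e ▸ hφ)
  have hcl' : IsClassFunction L (ψ - φ₁) :=
    (indSet_char hψ).isClassFunction.sub (indSet_char hφ₁).isClassFunction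
  have hsupp : ∀ y, y ∉ K → (ψ - φ₁) y = 0 := fun y hy => by
    rw [Pi.sub_apply, indAll_of_not_mem (indSet_subset_indAll hψ) hy,
      indAll_of_not_mem (indSet_subset_indAll hφ₁) hy, sub_self]
  have hone : (ψ - φ₁) 1 = 0 := by rw [Pi.sub_apply, hdeg _ s1, hdeg _ hS1, sub_self]
  have t1 := h.tau_iota hcl' hsupp hone 1
  have tx := h.tau_iota hcl' hsupp hone x
  rw [hτ ψ s1 φ₁ hS1, hψχ] at t1 tx
  rw [map_one, OneMemClass.coe_one, hone] at t1
  simp only [Pi.smul_apply, Pi.sub_apply, zsmul_eq_mul] at t1 tx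
  have d1 : irrDeg χ = irrDeg χ₁ := by
    have := (mul_eq_zero.1 t1).resolve_left hε0
    rw [coe_irrDeg, show μ φ₁ 1 = irrDeg χ₁ from coe_irrDeg χ₁, sub_eq_zero] at this
    exact_mod_cast this
  have d2 : |v χ - v χ₁| ≤ 2 * K.index := by
    rw [hv, show μ φ₁ (ι x) = v χ₁ from hv χ₁] at tx
    have a1 := (indSet_char hψ).norm_le x
    have a2 := (indSet_char hφ₁).norm_le x
    rw [hdeg _ s1, Complex.norm_natCast] at a1
    rw [hdeg _ hS1, Complex.norm_natCast] at a2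
    have a3 := norm_sub_le (ψ x) (φ₁ x)
    rw [← tx, norm_mul, ← Int.cast_sub, Complex.norm_intCast, Complex.norm_intCast] at a3
    have a4 : |(ε : ℝ)| = 1 := by rcases hε with rfl | rfl <;> simp
    rw [a4, one_mul] at a3
    have : ((|v χ - v χ₁| : ℤ) : ℝ) ≤ 2 * K.index := by rw [Int.cast_abs]; linarith
    exact_mod_cast this
  have d3 : K.index ≤ Nat.card Z - 1 := by
    refine Nat.le_of_dvd ?_ (index_dvd_card_sub_one fun z hz => h.frob z (hZ.le hz))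
    have := (nontrivial_iff_ne_bot Z).2 hZ.ne_bot
    have := Finite.one_lt_card (α := Z)
    omega
  have d4 : 3 * Nat.card Z ≤ Nat.card K := by
    have e1 := (Z.subgroupOf K).card_mul_index
    rw [Nat.card_congr (subgroupOfEquivOfLe hZ.le).toEquiv] at e1
    obtain ⟨m, hm⟩ := h.pK.index (Z.subgroupOf K)
    have hm0 : m ≠ 0 := by
      rintro rfl
      rw [pow_zero, index_eq_one, subgroupOf_eq_top] at hm
      exact hKZ hm
    have : 3 ≤ (Z.subgroupOf K).index := by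
      have a := hp.out.two_le
      exact hm ▸ (by omega : 3 ≤ p).trans (Nat.le_self_pow hm0 p)
    nlinarith
  have d5 : 0 < Nat.card Z := Nat.card_pos
  rw [d1]
  have := abs_le.1 d2
  omega

theorem caseB [IsSimpleGroup G] (hp2 : p ≠ 2) (hZ : ZH p K Z ι)
    (hK : ∀ a b : K, a * b = b * a) {x : K} (hx : (x : L) ∈ Z) (hx1 : x ≠ 1)
    (hcl : ∀ z : K, (z : L) ∈ Z → z ≠ 1 → IsConj (x : L) z) : False := by
  have hval : ∀ χ : IrrCharacter G, ∀ z : K, (z : L) ∈ Z → z ≠ 1 → χ.1 (ι z) = χ.1 (ι x) :=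
    fun χ z hz hz1 => (χ.2.isClassFunction.eq_of_isConj ((h.fus x z).2 (hcl z hz hz1))).symm
  choose v hv using fun χ : IrrCharacter G =>
    int_of_const_on_subgroup (χ.2.isGen.comp ι) (Z.subgroupOf K) (z := x) hx hx1
      (fun z hz hz1 => hval χ z hz hz1)
  simp only [Function.comp_apply] at hv
  have hC : Nat.card (centralizer ({(x : L)} : Set L)) = Nat.card K := by
    congr 2
    refine le_antisymm (fun g hg => h.frob x x.2 (fun e => hx1 (Subtype.ext e)) g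
      (mem_centralizer_singleton_iff.1 hg)) fun g hg => mem_centralizer_singleton_iff.2 ?_
    exact congrArg Subtype.val (hK ⟨g, hg⟩ x)
  set B := Finset.univ.filter (fun χ : IrrCharacter G => InB0 p χ.1) with hB
  let o : IrrCharacter G := ⟨1, isIrrCharacter_one⟩
  have ho : o ∈ B := Finset.mem_filter.2 ⟨Finset.mem_univ _, inB0_one⟩
  have hvo : v o = 1 := by have := hv o; simp only [o, Pi.one_apply] at this; exact_mod_cast this.symm
  have hdo : irrDeg o = 1 := by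
    have := coe_irrDeg o; simp only [o, Pi.one_apply] at this; exact_mod_cast this.symm
  have s1 : ∑ χ ∈ B, v χ ^ 2 = Nat.card K := by
    have t := pb0_clsFun_apply (p := p) (ι x) (ι x)
    rw [h.col_iota hx1, clsFun_self, hC] at t
    simp only [hv, map_intCast] at t
    have : ((∑ χ ∈ B, v χ ^ 2 : ℤ) : ℂ) = Nat.card K := by
      rw [t]; push_cast; exact Finset.sum_congr rfl fun χ _ => sq _
    exact_mod_cast this
  have s2 : ∑ χ ∈ B, v χ * irrDeg χ = 0 := by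
    have t := pb0_clsFun_apply (p := p) (ι x) 1
    have hz := h.col_iota hx1 1
    rw [map_one, clsFun_of_not_isConj (fun e => hx1 (Subtype.ext (by simpa using e.symm)))] at hz
    rw [hz] at t
    simp only [hv, map_intCast, coe_irrDeg] at t
    have : ((∑ χ ∈ B, v χ * irrDeg χ : ℤ) : ℂ) = 0 := by rw [t]; push_cast; rfl
    exact_mod_cast this
  have s3 : (Nat.card K : ℝ) ≤ 2 * ∑ χ ∈ B, (v χ : ℝ) ^ 3 / irrDeg χ := by
    have t1 := pb0_clsFun_sum_conj (p := p) (ι x) (ι x) (ι x)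
    have t2 := pb0_clsFun_sum_conj (p := p) (ι x) (ι x)⁻¹ (ι x)
    have hinv : ∀ χ : IrrCharacter G, χ.1 (ι x)⁻¹ = v χ := fun χ => by
      rw [← map_inv, hval χ _ (Z.inv_mem hx) (inv_ne_one.2 hx1), hv]
    simp only [hv, hinv, map_intCast, coe_irrDeg, h.col hx1, hC] at t1 t2
    have e : (∑ χ ∈ B, (v χ : ℂ) * (v χ * v χ / irrDeg χ)) =
        ((∑ χ ∈ B, (v χ : ℝ) ^ 3 / irrDeg χ : ℝ) : ℂ) := by
      push_cast; exact Finset.sum_congr rfl fun χ _ => by ring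
    rw [e] at t1 t2
    have u1 : ∑ i, (if PRel p (ι x) (i * ι x * i⁻¹ * ι x) then (Nat.card K : ℝ) else 0) =
        Nat.card G * ∑ χ ∈ B, (v χ : ℝ) ^ 3 / irrDeg χ := by
      apply Complex.ofReal_injective
      rw [Complex.ofReal_mul, Complex.ofReal_natCast, ← t1, Complex.ofReal_sum]
      exact Finset.sum_congr rfl fun i _ => by split_ifs <;> simp
    have u2 : ∑ i, (if PRel p (ι x) (i * (ι x)⁻¹ * i⁻¹ * ι x) then (Nat.card K : ℝ) else 0) =
        Nat.card G * ∑ χ ∈ B, (v χ : ℝ) ^ 3 / irrDeg χ := by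
      apply Complex.ofReal_injective
      rw [Complex.ofReal_mul, Complex.ofReal_natCast, ← t2, Complex.ofReal_sum]
      exact Finset.sum_congr rfl fun i _ => by split_ifs <;> simp
    have u3 : ∑ _i : G, (Nat.card K : ℝ) ≤
        ∑ i, ((if PRel p (ι x) (i * ι x * i⁻¹ * ι x) then (Nat.card K : ℝ) else 0) +
          (if PRel p (ι x) (i * (ι x)⁻¹ * i⁻¹ * ι x) then (Nat.card K : ℝ) else 0)) := by
      refine Finset.sum_le_sum fun g _ => ?_
      obtain ⟨x', y', hx', hy', c1, c2, r1, r2⟩ := hZ.pair x x hx hx hx1 hx1 g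
      have hrel : ∀ z : K, (z : L) ∈ Z → z ≠ 1 → PRel p (ι x) (ι z) := fun z hz hz1 =>
        PRel.of_isConj ((h.fus x z).2 (hcl z hz hz1))
      by_cases a : x' * y' = 1
      · have b : x'⁻¹ * y' ≠ 1 := by
          intro b
          have e1 : x' = y' := inv_mul_eq_one.1 b
          rw [← e1] at a
          obtain ⟨n, hn⟩ := h.pK x'
          have : x' = 1 := by
            have c := Nat.Coprime.pow_right n ((Nat.coprime_primes Nat.prime_two hp.out).2 hp2.symm)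
            rw [← orderOf_eq_one_iff]
            exact Nat.eq_one_of_dvd_coprimes c (orderOf_dvd_of_pow_eq_one (by rw [sq, a]))
              (orderOf_dvd_of_pow_eq_one hn)
          rw [this] at c1
          exact hx1 (Subtype.ext (by simpa using c1))
        rw [if_pos ((hrel _ (Z.mul_mem (Z.inv_mem hx') hy') b).trans r2)]
        split_ifs <;> simp
      · rw [if_pos ((hrel _ (Z.mul_mem hx' hy') a).trans r1)]
        split_ifs <;> simp
    rw [Finset.sum_add_distrib, u1, u2, Finset.sum_const, Finset.card_univ, nsmul_eq_mul,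
      ← Nat.card_eq_fintype_card] at u3
    have hG : (0 : ℝ) < Nat.card G := by exact_mod_cast Nat.card_pos
    nlinarith
  rw [← Finset.add_sum_erase _ _ ho] at s1 s2 s3
  rw [hvo] at s1 s2 s3
  rw [hdo] at s2 s3
  have hb : ∀ χ ∈ B.erase o, 2 * v χ ≤ irrDeg χ := by
    intro χ hχ
    have m := Finset.mem_erase.1 hχ
    have a := Finset.single_le_sum (f := fun χ => v χ ^ 2) (fun _ _ => sq_nonneg _) hχ
    rcases h.deg_bound hp2 hZ hK hx hx1 hcl v hv (Finset.mem_filter.1 m.2).2 m.1 with b | b <;>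
      nlinarith [sq_nonneg (v χ - 1), sq_nonneg (v χ - 2)]
  obtain ⟨χ₁, hχ₁, hneg⟩ : ∃ χ ∈ B.erase o, v χ < 0 := by
    by_contra c
    push Not at c
    have := Finset.sum_nonneg (s := B.erase o) (f := fun χ => v χ * (irrDeg χ : ℤ))
      fun χ hχ => mul_nonneg (c χ hχ) (Nat.cast_nonneg _)
    simp at s2
    omega
  have w := Finset.single_le_sum (s := B.erase o)
    (f := fun χ => (v χ : ℝ) ^ 2 / 2 - (v χ : ℝ) ^ 3 / irrDeg χ) (fun χ hχ => by
      have hd : (0 : ℝ) < irrDeg χ := by exact_mod_cast irrDeg_pos χ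
      have a : (2 * v χ : ℝ) ≤ irrDeg χ := by exact_mod_cast hb χ hχ
      rw [sub_nonneg, div_le_div_iff₀ hd (by norm_num)]
      nlinarith [sq_nonneg (v χ : ℝ)]) hχ₁
  have hd : (0 : ℝ) < irrDeg χ₁ := by exact_mod_cast irrDeg_pos χ₁
  have a1 : (v χ₁ : ℝ) ≤ -1 := by exact_mod_cast (by omega : v χ₁ ≤ -1)
  have a2 : (v χ₁ : ℝ) ^ 3 / irrDeg χ₁ < 0 :=
    div_neg_of_neg_of_pos (Odd.pow_neg (by decide) (by linarith)) hd
  rw [Finset.sum_sub_distrib, ← Finset.sum_div] at w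
  have s1' : 1 + ∑ χ ∈ B.erase o, (v χ : ℝ) ^ 2 = Nat.card K := by exact_mod_cast s1
  simp only [Int.cast_one, one_pow, Nat.cast_one, div_one] at s3
  nlinarith

omit [Z.Normal] in
theorem coherent_of_comm (hK : ∀ a b : K, a * b = b * a) :
    Coherent (indSet K Z ⊥) (tau p K ι) := by
  have hirr : ∀ φ ∈ indSet K Z (⊥ : Subgroup L), IsIrrCharacter L φ := fun φ hφ =>
    h.irr_of_mem (indSet_subset_self hφ)
  have hne : ∀ φ ∈ indSet K Z (⊥ : Subgroup L), φ ≠ 0 := fun φ hφ =>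
    indAll_ne_zero (indSet_subset_indAll hφ)
  have horth : ∀ φ ∈ indSet K Z (⊥ : Subgroup L), ∀ ψ ∈ indSet K Z (⊥ : Subgroup L), φ ≠ ψ →
      classInner φ ψ = 0 := fun φ hφ ψ hψ => (hirr φ hφ).inner_of_ne (hirr ψ hψ)
  rcases (indSet K Z (⊥ : Subgroup L)).eq_empty_or_nonempty with e | ⟨φ₀, hφ₀⟩
  · rw [e]; exact coherent_empty
  by_cases h2 : 2 ≤ (indSet K Z (⊥ : Subgroup L)).card
  · have hdeg : ∀ φ ∈ indSet K Z (⊥ : Subgroup L), φ 1 = K.index := by
      intro φ hφ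
      obtain ⟨θ, hθ, -, -, rfl⟩ := mem_indSet.1 hφ
      rw [indFun_one, hθ.one_eq_one_of_comm hK, mul_one]
    obtain ⟨ε, μ, hε, hμ, hinj, hτ⟩ := pf1_4 (indSet K Z ⊥) hirr
      (fun φ hφ ψ hψ => by rw [hdeg φ hφ, hdeg ψ hψ]) h2 (h.isomOn.mono indSet_subset_self)
    obtain ⟨ν, hν, -⟩ := coherent_of_pivot (τ := tau p K ι) hne horth (fun φ => ε • μ φ)
      (fun φ hφ => (hμ φ hφ).isGen.zsmul ε) (fun φ hφ ψ hψ => by
        rw [← Int.cast_smul_eq_zsmul ℂ, ← Int.cast_smul_eq_zsmul ℂ, classInner_smul_left,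
          classInner_smul_right, (hμ φ hφ).inner (hμ ψ hψ), (hirr φ hφ).inner (hirr ψ hψ)]
        by_cases e : φ = ψ
        · rcases hε with rfl | rfl <;> simp [e]
        · rw [if_neg e, if_neg fun e' => e (hinj hφ hψ e')]; simp)
      hφ₀ (hirr _ hφ₀).one_ne_zero (fun φ hφ => by
        rw [hdeg _ hφ, hdeg _ hφ₀, ← smul_sub, ← smul_sub, ← smul_sub, map_smul, hτ φ hφ φ₀ hφ₀])
    exact ⟨ν, hν⟩
  · have hs : ∀ φ ∈ indSet K Z (⊥ : Subgroup L), φ = φ₀ := fun φ hφ =>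
      Finset.card_le_one.1 (by omega) φ hφ φ₀ hφ₀
    obtain ⟨ν, hν, -⟩ := coherent_of_pivot (τ := tau p K ι) hne horth (fun _ => 1)
      (fun _ _ => isGen_one) (fun φ hφ ψ hψ => by
        rw [hs φ hφ, hs ψ hψ, classInner_one_one, (hirr _ hφ₀).inner_self])
      hφ₀ (hirr _ hφ₀).one_ne_zero (fun φ hφ => by rw [hs φ hφ, sub_self, sub_self, map_zero])
    exact ⟨ν, hν⟩

theorem false_of_odd [IsSimpleGroup G] (hG : ¬ IsMulCommutative G) (hp2 : p ≠ 2)
    (hZ : ZH p K Z ι) (hK : K ≠ ⊤) : False := by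
  obtain ⟨⟨x, hx⟩, hx1⟩ := ne_bot_iff_exists_ne_one.1 hZ.ne_bot
  have hx1' : (⟨x, hZ.le hx⟩ : K) ≠ 1 := fun e =>
    hx1 (Subtype.ext (show x = 1 from congrArg Subtype.val e))
  by_cases hodd : Odd (Nat.card L)
  · obtain ⟨R, hR⟩ := pf5_3a (fun φ hφ => h.irr_of_mem hφ) (fun φ hφ => star_mem_indSet hφ)
      (fun φ hφ => star_ne_of_mem_indSet hodd hφ) h.isomOn
    refine h.caseA hG hZ (x := ⟨x, hZ.le hx⟩) (y := ⟨x, hZ.le hx⟩) hx hx hx1' hx1' (fun e => ?_)
      (pf6_6 hR (oddFrobQuot_of_frobenius hodd h.pK.isNilpotent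
        (fun e => hZ.ne_bot (le_bot_iff.1 (e ▸ hZ.le))) hK h.frob) Z hZ.le hZ.cent
        fun φ hφ => h.irr_of_mem (indSet_subset_self hφ)).2
    exact not_isConj_inv_of_ti (P := ⊤) (L := ⊤) (fun _ _ _ _ _ => mem_top _) le_rfl
      (by rwa [card_top]) (mem_top x) (fun e => hx1 (Subtype.ext e)) e.symm
  · haveI := Fact.mk Nat.prime_two
    obtain ⟨c, hc⟩ := exists_prime_orderOf_dvd_card' 2 (even_iff_two_dvd.1 (Nat.not_odd_iff_even.1 hodd))
    have hcK : c ∉ K := fun e => by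
      obtain ⟨n, hn⟩ := h.pK ⟨c, e⟩
      have := orderOf_dvd_of_pow_eq_one (congrArg Subtype.val hn : c ^ p ^ n = 1)
      rw [hc] at this
      exact hp2 ((Nat.prime_dvd_prime_iff_eq Nat.prime_two hp.out).1
        (Nat.prime_two.dvd_of_dvd_pow this)).symm
    have hinv : ∀ a ∈ K, c * a * c⁻¹ = a⁻¹ := fun a ha =>
      BSW.inverts_of_fixedPointFree (by rw [← sq, ← hc, pow_orderOf_eq_one])
        (by rw [normalizer_eq_top]; trivial)
        (fun a ha e => by by_contra n; exact hcK (h.frob a ha n c e)) ha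
    have hcomm : ∀ a b : K, a * b = b * a := fun a b => by
      have e := hinv _ (K.mul_mem a.2 b.2)
      rw [show c * (a * b) * c⁻¹ = (c * a * c⁻¹) * (c * b * c⁻¹) by group, hinv a a.2, hinv b b.2,
        ← mul_inv_rev, inv_inj] at e
      exact Subtype.ext e.symm
    by_cases hcl : ∀ z : K, (z : L) ∈ Z → z ≠ 1 → IsConj x z
    · exact h.caseB hp2 hZ hcomm (x := ⟨x, hZ.le hx⟩) hx hx1' hcl
    · push Not at hcl
      obtain ⟨y, hy, hy1, hn⟩ := hcl
      exact h.caseA hG hZ (x := ⟨x, hZ.le hx⟩) hx hy hx1' hy1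
        (fun e => hn ((isConj_iff.2 ⟨c, hinv x (hZ.le hx)⟩).trans e)) (h.coherent_of_comm hcomm)

end CH

end Cfsg.Lib.GSz
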