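import Cfsg.Agent.Lib.GSz.CaseB
import Cfsg.Agent.Lib.FT.BG1.Transfer
import Cfsg.Agent.Lib.Coprime.Constrained
import Cfsg.Agent.Lib.Small.Basic

/-!
Glauberman's characterization of the Suzuki groups: the local hypotheses and their first
consequences; the case of an odd prime for simple groups.
-/

set_option autoImplicit false

namespace Cfsg.Lib.GSz

open Subgroup Cfsg.Lib.FT

variable {G : Type*} [Group G]

/-- `Ω₁(Z(P))` -/
def zz (p : ℕ) (P : Subgroup G) : Subgroup G where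
  carrier := {x | x ∈ P ∧ x ∈ C[P] ∧ x ^ p = 1}
  one_mem' := ⟨one_mem _, one_mem _, one_pow _⟩
  mul_mem' := by
    rintro a b ⟨a1, a2, a3⟩ ⟨b1, b2, b3⟩
    refine ⟨mul_mem a1 b1, mul_mem a2 b2, ?_⟩
    rw [Commute.mul_pow (mem_centralizer_iff.1 b2 a a1), a3, b3, one_mul]
  inv_mem' := by
    rintro a ⟨a1, a2, a3⟩
    exact ⟨inv_mem a1, inv_mem a2, by rw [inv_pow, a3, inv_one]⟩

theorem mem_zz {p : ℕ} {P : Subgroup G} {x : G} :
    x ∈ zz p P ↔ x ∈ P ∧ x ∈ C[P] ∧ x ^ p = 1 := Iff.rfl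

theorem zz_le {p : ℕ} {P : Subgroup G} : zz p P ≤ P := fun _ h => h.1

theorem zz_le_cent {p : ℕ} {P : Subgroup G} : zz p P ≤ C[P] := fun _ h => h.2.1

theorem conj_mem_zz {p : ℕ} {P : Subgroup G} {x n : G} (hx : x ∈ zz p P) (hn : n ∈ N[P]) :
    n * x * n⁻¹ ∈ zz p P := by
  refine ⟨(mem_normalizer_iff.1 hn x).1 hx.1, mem_centralizer_iff.2 fun y hy => ?_,
    by rw [conj_pow, hx.2.2]; simp⟩
  have := mem_centralizer_iff.1 hx.2.1 _ ((mem_normalizer_iff''.1 hn y).1 hy)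
  calc y * (n * x * n⁻¹) = n * (n⁻¹ * y * n * x) * n⁻¹ := by group
    _ = _ := by rw [this]; group

theorem normalizer_le_zz {p : ℕ} {P : Subgroup G} : N[P] ≤ N[zz p P] := fun n hn =>
  mem_normalizer_iff.2 fun x => ⟨fun hx => conj_mem_zz hx hn, fun hx => by
    simpa [mul_assoc] using conj_mem_zz hx (inv_mem hn)⟩

variable [Finite G] {p : ℕ} [hp : Fact p.Prime] {P : Subgroup G}

omit [Finite G] in
theorem orderOf_of_mem_zz {x : G} (hx : x ∈ zz p P) (h1 : x ≠ 1) : orderOf x = p :=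
  orderOf_eq_prime hx.2.2 h1

theorem zz_ne_bot (hP : IsPGroup p P) (h : P ≠ ⊥) : zz p P ≠ ⊥ := by
  have : Nontrivial P := (nontrivial_iff_ne_bot _).mpr h
  have := hP.center_nontrivial
  obtain ⟨k, hk, e⟩ := (hP.to_subgroup (center P)).nontrivial_iff_card.mp this
  obtain ⟨z, hz, h⟩ := sm_exists_mem_orderOf_eq hp.out (center P) (e ▸ dvd_pow_self p hk.ne')
  refine ne_bot_iff_exists_ne_one.2 ⟨⟨z, z.2, mem_centralizer_iff.2 fun g hg =>
    congrArg Subtype.val (mem_center_iff.mp hz ⟨g, hg⟩), ?_⟩, fun e => ?_⟩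
  · rw [← coe_pow, ← h, pow_orderOf_eq_one, coe_one]
  · have : z = 1 := Subtype.ext (show (z : G) = 1 from congrArg Subtype.val e)
    rw [this, orderOf_one] at h
    exact hp.out.one_lt.ne h

theorem exists_conj_mem_of_npc {H S : Subgroup G} (hH : HasNormalPComplement p H)
    (hS : IsSylowIn p S H) {v : G} (hv : v ∈ H) {k : ℕ} (hk : v ^ p ^ k = 1) :
    ∃ o ∈ piCoreOf {p}ᶜ H, o * v * o⁻¹ ∈ S := by
  obtain ⟨c, hc, e⟩ := hS.exists_conj_le (isPGroup_zpowers_of_pow hk) (zpowers_le.2 hv)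
  obtain ⟨s, hs, o, ho, rfl⟩ := (isComplIn_of_hasNormalPComplement hH hS).exists_mul' hc
  have := e (mem_map_of_mem _ (mem_zpowers v))
  refine ⟨o, ho, ?_⟩
  have t := S.mul_mem (S.mul_mem (S.inv_mem hs) this) hs
  simpa [mul_assoc] using t

theorem pRel_of_npc {H S : Subgroup G} (hH : HasNormalPComplement p H) (hS : IsSylowIn p S H)
    {u t : G} (hu : u ∈ S) (ht : t ∈ H) (e : t * u⁻¹ ∈ piCoreOf {p}ᶜ H) : PRel p u t := by
  set O := piCoreOf {p}ᶜ H with hO
  have hOn : ¬ p ∣ Nat.card O := not_dvd_card_piCoreOf hp.out (by simp) H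
  haveI : (O.subgroupOf H).Normal :=
    (normal_subgroupOf_iff_le_normalizer (piCoreOf_le _ _)).2 (le_normalizer_piCoreOf _ _)
  have key : ∀ m : ℕ, t ^ m * (u ^ m)⁻¹ ∈ O := by
    intro m
    have e1 : (QuotientGroup.mk ⟨t, ht⟩ : H ⧸ O.subgroupOf H) = QuotientGroup.mk ⟨u, hS.le hu⟩ :=
      QuotientGroup.eq_iff_div_mem.2 (by rw [div_eq_mul_inv]; exact e)
    have e2 := congrArg (· ^ m) e1
    simp only [← QuotientGroup.mk_pow] at e2
    have := QuotientGroup.eq_iff_div_mem.1 e2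
    rwa [div_eq_mul_inv] at this
  obtain ⟨k, hk⟩ := hS.isPGroup ⟨u, hu⟩
  have hk' : u ^ p ^ k = 1 := congrArg Subtype.val hk
  have h1 : (t ^ Nat.card O) ^ p ^ k = 1 := by
    have := key (p ^ k)
    rw [hk', inv_one, mul_one] at this
    rw [← pow_mul, mul_comm, pow_mul]
    exact congrArg Subtype.val (pow_card_eq_one' (x := (⟨_, this⟩ : O)))
  obtain ⟨o, ho, hc⟩ := exists_conj_mem_of_npc hH hS (H.pow_mem ht _) h1
  refine ⟨o, Nat.card O, ?_, hOn⟩
  have h2 : o * t ^ Nat.card O * o⁻¹ * (u ^ Nat.card O)⁻¹ = 1 := by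
    refine (isComplIn_of_hasNormalPComplement hH hS).eq_one ?_
      (S.mul_mem hc (S.inv_mem (S.pow_mem hu _)))
    have a := (mem_normalizer_iff.1 (le_normalizer_piCoreOf {p}ᶜ H (H.pow_mem ht (Nat.card O))) _).1
      (O.inv_mem ho)
    have := O.mul_mem (O.mul_mem ho a) (key (Nat.card O))
    simpa [mul_assoc] using this
  rw [mul_inv_eq_one] at h2
  rw [← h2]; group

/-- the local hypotheses -/
structure GH (p : ℕ) (P : Subgroup G) : Prop where
  syl : IsSylowIn p P ⊤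
  fus : ∀ x ∈ P, ∀ g, g * x * g⁻¹ ∈ P → ∃ n ∈ N[P], n * x * n⁻¹ = g * x * g⁻¹
  npc : ∀ x ∈ P, x ≠ 1 → HasNormalPComplement p C1[x]
  sol : ∀ x y : G, orderOf x = p → orderOf y = p → IsPSolvable p (closure ({x, y} : Set G))

namespace GH

variable (h : GH p P)
include h

omit [Finite G] hp in
theorem sc {z g : G} (hz : z ∈ zz p P) (hg : g * z * g⁻¹ ∈ P) : g * z * g⁻¹ ∈ zz p P := by
  obtain ⟨n, hn, e⟩ := h.fus z hz.1 g hg
  exact e ▸ conj_mem_zz hz hn

theorem sylow_cent {u : G} (hu : u ∈ P) : IsSylowIn p (P ⊓ C1[u]) C1[u] := by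
  obtain ⟨S, hS, hle⟩ := exists_isSylowIn_ge (h.syl.isPGroup.to_le (zpowers_le.2 hu))
    (zpowers_le.2 (mem_centralizer_singleton_iff.2 rfl) : zpowers u ≤ C1[u])
  obtain ⟨g, -, e⟩ := h.syl.exists_conj_le hS.isPGroup le_top
  obtain ⟨n, hn, e2⟩ := h.fus u hu g (e (mem_map_of_mem _ (hle (mem_zpowers u))))
  have hc : n⁻¹ * g ∈ C1[u] := mem_centralizer_singleton_iff.2 (by
    calc n⁻¹ * g * u = n⁻¹ * (g * u * g⁻¹) * g := by group
      _ = _ := by rw [← e2]; group)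
  have h1 := hS.conj_of_mem_normalizer (le_normalizer hc)
  have h2 : (n⁻¹ * g) •ᶜ S ≤ P ⊓ C1[u] := le_inf (by
    rw [map_conj_mul]; exact map_conj_le_of_mem_normalizer e (inv_mem hn)) h1.le
  rw [h1.maximal _ (h.syl.isPGroup.to_le inf_le_left) inf_le_right h2]
  exact h1

/-- a `p'`-element of `N(P)` with a non-trivial fixed point in `P` centralizes `P` -/
theorem frob {w u : G} (hw : w ∈ N[P]) (hd : ¬ p ∣ orderOf w) (hu : u ∈ P) (h1 : u ≠ 1)
    (e : w * u = u * w) : w ∈ C[P] := by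
  have hd' : ¬ p ∣ Nat.card (zpowers w) := by rwa [Nat.card_zpowers]
  have key : ∀ u ∈ P, u ≠ 1 → w * u = u * w → zpowers w ≤ C[P ⊓ C1[u]] := by
    intro u hu h1 e
    have hc : zpowers w ≤ C1[u] := zpowers_le.2 (mem_centralizer_singleton_iff.2 e)
    exact le_centralizer_of_hasNormalPComplement (h.npc u hu h1) hc hd' inf_le_right
      (h.syl.isPGroup.to_le inf_le_left)
      ((le_inf (zpowers_le.2 hw) (hc.trans le_normalizer)).trans inf_normalizer_le_normalizer_inf)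
  obtain ⟨⟨z, hz⟩, hz1⟩ := ne_bot_iff_exists_ne_one.1
    (zz_ne_bot h.syl.isPGroup (ne_bot_iff_exists_ne_one.2 ⟨⟨u, hu⟩, fun e => h1 (congrArg Subtype.val e)⟩))
  have e2 := mem_centralizer_iff.1 (key u hu h1 e (mem_zpowers w)) z
    ⟨hz.1, mem_centralizer_singleton_iff.2 (mem_centralizer_iff.1 hz.2.1 u hu).symm⟩
  have e3 := key z hz.1 (fun e => hz1 (Subtype.ext e)) e2.symm (mem_zpowers w)
  rwa [inf_eq_left.2 fun y hy =>
    mem_centralizer_singleton_iff.2 (mem_centralizer_iff.1 hz.2.1 y hy)] at e3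

theorem cent_of_isConj {S : Subgroup G} (hS : IsPGroup p S) {z x : G} (hz : z ∈ zz p P)
    (hx : x ∈ S) (hc : IsConj z x) : S ≤ C1[x] := by
  obtain ⟨g, -, e⟩ := h.syl.exists_conj_le hS le_top
  obtain ⟨c, rfl⟩ := isConj_iff.1 hc
  have h1 : g * c * z * (g * c)⁻¹ ∈ P := by
    have := e (mem_map_of_mem _ hx)
    simpa [mul_assoc] using this
  intro s hs
  have h2 := mem_centralizer_iff.1 (h.sc hz h1).2.1 _ (e (mem_map_of_mem _ hs))
  rw [mem_centralizer_singleton_iff]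
  simp only [MulEquiv.coe_toMonoidHom, MulAut.conj_apply] at h2
  calc s * (c * z * c⁻¹) = g⁻¹ * (g * s * g⁻¹ * (g * c * z * (g * c)⁻¹)) * g := by group
    _ = _ := by rw [h2]; group

theorem npc_closure {x y a b : G} (hx : x ∈ zz p P) (hy : y ∈ zz p P) (hx1 : x ≠ 1) (hy1 : y ≠ 1)
    (ha : IsConj x a) (hb : IsConj y b) : HasNormalPComplement p (closure ({a, b} : Set G)) := by
  have oa : orderOf a = p := by
    obtain ⟨c, rfl⟩ := isConj_iff.1 ha
    rw [← orderOf_of_mem_zz hx hx1]; exact (MulAut.conj c).orderOf_eq x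
  have ob : orderOf b = p := by
    obtain ⟨c, rfl⟩ := isConj_iff.1 hb
    rw [← orderOf_of_mem_zz hy hy1]; exact (MulAut.conj c).orderOf_eq y
  set H := closure ({a, b} : Set G) with hH
  have hcon := isPConstrained_iff.1 (isPConstrained_of_isPSolvable (h.sol a b oa ob))
  set π := QuotientGroup.mk' (pPrimeCore p H) with hπ
  have key : ∀ z ∈ zz p P, ∀ c : H, IsConj z c → π c ∈ pCore p (H ⧸ pPrimeCore p H) := by
    intro z hz c hc
    have hcp : IsPGroup p (zpowers c) := by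
      refine isPGroup_zpowers_of_pow (k := 1) (Subtype.ext ?_)
      obtain ⟨d, hd⟩ := isConj_iff.1 hc
      rw [pow_one, coe_pow, ← hd, conj_pow, hz.2.2]; simp
    obtain ⟨S, hS⟩ := hcp.exists_le_sylow
    have h1 := h.cent_of_isConj (S.isPGroup'.map H.subtype) hz
      (mem_map_of_mem _ (hS (mem_zpowers c))) hc
    refine hcon (mem_centralizer_iff.2 fun q hq => ?_)
    obtain ⟨s, hs, rfl⟩ := pCore_le_sylow (S.mapSurjective (QuotientGroup.mk'_surjective _)) hq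
    rw [← map_mul, ← map_mul]
    congr 1
    exact Subtype.ext (mem_centralizer_singleton_iff.1 (h1 (mem_map_of_mem _ hs)))
  refine hasNormalPComplement_of_normal (pPrimeCore p H) not_dvd_card_pPrimeCore ?_
  have htop : pCore p (H ⧸ pPrimeCore p H) = ⊤ := by
    have : ((pCore p (H ⧸ pPrimeCore p H)).comap π).map H.subtype = H := by
      refine le_antisymm (map_subtype_le _) ((closure_le _).2 ?_)
      rintro c (rfl | rfl)
      · exact ⟨⟨c, subset_closure (by simp)⟩, key x hx _ ha, rfl⟩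
      · exact ⟨⟨c, subset_closure (by simp)⟩, key y hy _ hb, rfl⟩
    rw [eq_top_iff]
    intro q _
    obtain ⟨c, rfl⟩ := QuotientGroup.mk'_surjective _ q
    obtain ⟨d, hd, e⟩ := this.ge c.2
    exact (Subtype.ext e : d = c) ▸ hd
  exact (htop ▸ isPGroup_pCore).of_equiv topEquiv

theorem pair {x y : G} (hx : x ∈ zz p P) (hy : y ∈ zz p P) (hx1 : x ≠ 1) (hy1 : y ≠ 1) (g : G) :
    ∃ x' ∈ zz p P, ∃ y' ∈ zz p P, IsConj x x' ∧ IsConj y y' ∧
      PRel p (x' * y') (g * x * g⁻¹ * y) ∧ PRel p (x'⁻¹ * y') (g * x⁻¹ * g⁻¹ * y) := by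
  set a := g * x * g⁻¹ with ha
  have hH := h.npc_closure hx hy hx1 hy1 (isConj_iff.2 ⟨g, ha.symm⟩) (IsConj.refl y)
  set H := closure ({a, y} : Set G) with hHd
  have aH : a ∈ H := subset_closure (by simp)
  have yH : y ∈ H := subset_closure (by simp)
  obtain ⟨S, hS, hle⟩ := exists_isSylowIn_ge (h.syl.isPGroup.to_le (zpowers_le.2 hy.1))
    (zpowers_le.2 yH)
  have yS := hle (mem_zpowers y)
  obtain ⟨o, ho, hoa⟩ := exists_conj_mem_of_npc hH hS aH (k := 1)
    (by rw [pow_one, ha, conj_pow, hx.2.2]; simp)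
  obtain ⟨c, -, e⟩ := h.syl.exists_conj_le hS.isPGroup le_top
  have m1 : c * o * g * x * (c * o * g)⁻¹ ∈ P := by
    have := e (mem_map_of_mem _ hoa)
    simpa [ha, mul_assoc] using this
  have m2 : c * y * c⁻¹ ∈ P := e (mem_map_of_mem _ yS)
  have hn : ∀ t ∈ H, t * o * t⁻¹ * o⁻¹ ∈ piCoreOf {p}ᶜ H := fun t ht =>
    mul_mem ((mem_normalizer_iff.1 (le_normalizer_piCoreOf {p}ᶜ H ht) _).1 ho) (inv_mem ho)
  refine ⟨_, h.sc hx m1, _, h.sc hy m2, isConj_iff.2 ⟨_, rfl⟩, isConj_iff.2 ⟨_, rfl⟩, ?_, ?_⟩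
  · refine PRel.trans (PRel.of_isConj (isConj_iff.2 ⟨c⁻¹, ?_⟩))
      (pRel_of_npc hH hS (S.mul_mem hoa yS) (H.mul_mem aH yH) ?_)
    · rw [ha]; group
    · convert hn a aH using 1; group
  · refine PRel.trans (PRel.of_isConj (isConj_iff.2 ⟨c⁻¹, ?_⟩))
      (pRel_of_npc hH hS (S.mul_mem (S.inv_mem hoa) yS) (t := g * x⁻¹ * g⁻¹ * y)
        (by simpa [ha, mul_assoc] using H.mul_mem (H.inv_mem aH) yH) ?_)
    · rw [ha]; group
    · convert hn a⁻¹ (H.inv_mem aH) using 1; rw [ha]; group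

theorem mem_core {w : G} (hP : P ≠ ⊥) (hw : w ∈ C[P]) (hd : ¬ p ∣ orderOf w) :
    w ∈ piCoreOf {p}ᶜ N[P] := by
  obtain ⟨⟨z, hz⟩, hz1⟩ := ne_bot_iff_exists_ne_one.1 hP
  have h1 : HasNormalPComplement p C[P] :=
    (h.npc z hz fun e => hz1 (Subtype.ext e)).to_le (centralizer_le_singleton hz)
  exact piCoreOf_le_of_le_normalizer _ (centralizer_le_normalizer _)
    (normalizer_le_normalizer_centralizer _)
    (le_piCoreOf_of_hasNormalPComplement h1 (zpowers_le.2 hw) (by rwa [Nat.card_zpowers])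
      (mem_zpowers w))

/-- an element of `N(P)` with a non-trivial fixed point on `P` lies in `P O_{p'}(N(P))` -/
theorem exists_mul_core {n u : G} (hn : n ∈ N[P]) (hu : u ∈ P) (h1 : u ≠ 1) (e : n * u = u * n) :
    ∃ a ∈ P, ∃ w ∈ piCoreOf {p}ᶜ N[P], n = a * w := by
  obtain ⟨a, w, e1, -, ⟨k, hk⟩, hw, ha, hw'⟩ := exists_pPart (p := p) n
  have hz : zpowers n ≤ N[P] := zpowers_le.2 hn
  refine ⟨a, h.syl.le_of_le_normalizer (isPGroup_zpowers_of_pow hk) le_top (zpowers_le.2 (hz ha))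
    (mem_zpowers a), w, h.mem_core (ne_bot_iff_exists_ne_one.2
      ⟨⟨u, hu⟩, fun e => h1 (congrArg Subtype.val e)⟩) (h.frob (hz hw') hw hu h1 ?_) hw, e1⟩
  exact mem_centralizer_singleton_iff.1
    ((zpowers_le.2 (mem_centralizer_singleton_iff.2 e) : zpowers n ≤ C1[u]) hw')

theorem core_le_cent : piCoreOf {p}ᶜ N[P] ≤ C[P] := by
  have := piCoreOf_le_centralizer_compl {p} N[P]
  rw [piCoreOf_eq_of_isSylowIn (h.syl.mono le_normalizer le_top) le_rfl] at this
  exact le_centralizer_iff.1 this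

theorem npc_of_le (hN : ∀ n ∈ N[P], ∃ a ∈ P, ∃ w ∈ C[P], n = a * w) :
    HasNormalPComplement p G := by
  obtain ⟨S, rfl⟩ := h.syl.exists_sylow_top
  refine hasNormalPComplement_of_controls_fusion S fun x hx g hg => ?_
  obtain ⟨n, hn, e⟩ := h.fus x hx g hg
  obtain ⟨a, ha, w, hw, rfl⟩ := hN n hn
  refine ⟨a, ha, ?_⟩
  rw [← e, mul_assoc a, ← mem_centralizer_iff.1 hw x hx]; group

theorem false_of_odd [IsSimpleGroup G] (hG : ¬ IsMulCommutative G) (hp2 : p ≠ 2) (hP : P ≠ ⊥) :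
    False := by
  classical
  set O := (piCoreOf {p}ᶜ N[P]).subgroupOf N[P] with hO
  haveI : O.Normal :=
    (normal_subgroupOf_iff_le_normalizer (piCoreOf_le _ _)).2 (le_normalizer_piCoreOf _ _)
  set π := QuotientGroup.mk' O with hπ
  let f : P →* N[P] ⧸ O := π.comp (inclusion le_normalizer)
  have hf : Function.Injective f := by
    rw [injective_iff_map_eq_one]
    intro a ha
    have h1 : (a : G) ∈ piCoreOf {p}ᶜ N[P] :=
      (QuotientGroup.eq_one_iff (N := O) (inclusion le_normalizer a)).1 ha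
    exact Subtype.ext ((isPiSubgroup_singleton_iff.2 h.syl.isPGroup).eq_one a.2
      ((isPiSubgroup_piCoreOf _ _).orderOf h1))
  have hconj : ∀ (n : N[P]) (a : P), π n * f a * (π n)⁻¹ =
      f ⟨n * a * (n : G)⁻¹, (mem_normalizer_iff.1 n.2 _).1 a.2⟩ := fun n a => by
    rw [← map_inv]; rfl
  haveI : f.range.Normal := ⟨by
    rintro _ ⟨a, rfl⟩ x
    obtain ⟨n, rfl⟩ := QuotientGroup.mk'_surjective O x
    exact ⟨_, (hconj n a).symm⟩⟩
  let e : P ≃* f.range := MonoidHom.ofInjective hf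
  let ι : f.range →* G := P.subtype.comp e.symm.toMonoidHom
  have hι : ∀ a : P, ι (e a) = a := fun a => by simp [ι]
  have he : ∀ a : P, (e a : N[P] ⧸ O) = f a := fun a => rfl
  have hcomm : ∀ (n : N[P]) (a : P), π n * f a = f a * π n → (n : G) * a = a * n := by
    intro n a c
    have := hconj n a
    rw [c, mul_inv_cancel_right] at this
    have := congrArg Subtype.val (hf this)
    simp only at this
    nth_rewrite 2 [this]; group
  have hfrob : ∀ k ∈ f.range, k ≠ 1 → ∀ x, x * k = k * x → x ∈ f.range := by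
    rintro _ ⟨u, rfl⟩ h1 x c
    obtain ⟨n, rfl⟩ := QuotientGroup.mk'_surjective O x
    obtain ⟨a, ha, w, hw, e1⟩ := h.exists_mul_core n.2 u.2
      (fun e => h1 (by rw [show u = 1 from Subtype.ext e, map_one])) (hcomm n u c)
    refine ⟨⟨a, ha⟩, QuotientGroup.eq.2 ?_⟩
    change a⁻¹ * (n : G) ∈ piCoreOf {p}ᶜ N[P]
    rw [e1]; simpa using hw
  have hne : ∀ a : P, e a ≠ 1 → (a : G) ≠ 1 := fun a ha c =>
    ha (by rw [show a = 1 from Subtype.ext c, map_one])
  have hCH : CH p f.range ι := by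
    refine ⟨h.syl.isPGroup.of_equiv e, hfrob, fun k hk => ?_, fun k hk => ?_, fun k k' => ?_⟩
    · obtain ⟨a, rfl⟩ := e.surjective k
      rw [hι]; exact h.npc a a.2 (hne a hk)
    · obtain ⟨a, rfl⟩ := e.surjective k
      rw [hι, he]
      obtain ⟨S, hS⟩ := (h.sylow_cent a.2).exists_sylow
      rw [((h.npc a a.2 (hne a hk)).isComplement' S).symm.index_eq_card,
        ← card_map_of_injective (K := (S : Subgroup C1[(a : G)])) (subtype_injective _), hS]
      refine Nat.card_eq_of_bijective (fun s => ⟨f ⟨s, s.2.1⟩, mem_centralizer_singleton_iff.2 ?_⟩)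
        ⟨fun s t c => ?_, fun x => ?_⟩
      · rw [← map_mul, ← map_mul]
        congr 1
        exact Subtype.ext (mem_centralizer_singleton_iff.1 s.2.2)
      · exact Subtype.ext (Subtype.mk.inj (hf (congrArg Subtype.val c)))
      · have c := mem_centralizer_singleton_iff.1 x.2
        obtain ⟨s, hs⟩ := hfrob _ ⟨a, rfl⟩ (fun c => hk (Subtype.ext c)) x c
        rw [← hs, ← map_mul, ← map_mul] at c
        exact ⟨⟨s, s.2, mem_centralizer_singleton_iff.2 (congrArg Subtype.val (hf c))⟩,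
          Subtype.ext hs⟩
    · obtain ⟨a, rfl⟩ := e.surjective k
      obtain ⟨b, rfl⟩ := e.surjective k'
      rw [hι, hι, he, he, isConj_iff, isConj_iff]
      constructor
      · rintro ⟨g, hg⟩
        obtain ⟨n, hn, e1⟩ := h.fus a a.2 g (hg ▸ b.2)
        refine ⟨π ⟨n, hn⟩, ?_⟩
        rw [hconj]; congr 1; exact Subtype.ext (e1.trans hg)
      · rintro ⟨x, hx⟩
        obtain ⟨n, rfl⟩ := QuotientGroup.mk'_surjective O x
        exact ⟨n, congrArg Subtype.val (hf ((hconj n a).symm.trans hx))⟩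
  set Z := ((zz p P).subgroupOf P).map f with hZ
  have hmem : ∀ a : P, f a ∈ Z ↔ (a : G) ∈ zz p P := fun a => mem_map_iff_mem hf
  haveI : Z.Normal := ⟨by
    rintro _ ⟨a, ha, rfl⟩ x
    obtain ⟨n, rfl⟩ := QuotientGroup.mk'_surjective O x
    rw [hconj, hmem]
    exact conj_mem_zz ha n.2⟩
  have hZH : ZH p f.range Z ι := by
    refine ⟨map_le_range _ _, ?_, ?_, fun k hk => ?_, fun x y hx hy hx1 hy1 g => ?_⟩
    · obtain ⟨⟨z, hz⟩, hz1⟩ := ne_bot_iff_exists_ne_one.1 (zz_ne_bot h.syl.isPGroup hP)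
      refine ne_bot_iff_exists_ne_one.2 ⟨⟨f ⟨z, hz.1⟩, (hmem _).2 hz⟩, fun c => hz1 ?_⟩
      have := (injective_iff_map_eq_one f).1 hf _ (congrArg Subtype.val c)
      exact Subtype.ext (show z = 1 from congrArg Subtype.val this)
    · rintro _ ⟨z, hz, rfl⟩ _ ⟨a, rfl⟩
      rw [← map_mul, ← map_mul]
      congr 1
      exact Subtype.ext (mem_centralizer_iff.1 (zz_le_cent hz) a a.2).symm
    · obtain ⟨a, rfl⟩ := e.surjective k
      rw [hι]
      have ha := (hmem a).1 hk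
      refine fun c => h.syl.not_dvd_relIndex ?_
      rw [relIndex_top_right]
      exact c.trans (index_dvd_of_le fun y hy =>
        mem_centralizer_singleton_iff.2 (mem_centralizer_iff.1 ha.2.1 y hy))
    · obtain ⟨a, rfl⟩ := e.surjective x
      obtain ⟨b, rfl⟩ := e.surjective y
      obtain ⟨x', hx', y', hy', c1, c2, r1, r2⟩ :=
        h.pair ((hmem a).1 hx) ((hmem b).1 hy) (hne a hx1) (hne b hy1) g
      refine ⟨e ⟨x', hx'.1⟩, e ⟨y', hy'.1⟩, (hmem _).2 hx', (hmem _).2 hy',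
        (hCH.fus _ _).1 (by rwa [hι, hι]), (hCH.fus _ _).1 (by rwa [hι, hι]), ?_, ?_⟩
      · rwa [map_mul, hι, hι, hι, hι]
      · rwa [map_mul, map_inv, hι, hι, hι, hι]
  haveI := Fintype.ofFinite G
  haveI := Fintype.ofFinite (N[P] ⧸ O)
  refine hCH.false_of_odd hG hp2 hZH fun ht => ?_
  refine sm_not_hasNormalPComplement hG ((dvd_card_of_isPGroup_of_ne_bot h.syl.isPGroup hP).trans
    (card_subgroup_dvd_card P)) (h.npc_of_le fun n hn => ?_)
  obtain ⟨a, ha⟩ := ht.ge (mem_top (π ⟨n, hn⟩))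
  exact ⟨a, a.2, (a : G)⁻¹ * n, h.core_le_cent
    ((QuotientGroup.eq (s := O) (a := inclusion le_normalizer a) (b := ⟨n, hn⟩)).1 ha), by group⟩

end GH

end Cfsg.Lib.GSz
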