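import Cfsg.Agent.Lib.Core.B0
import Cfsg.Agent.Lib.ZStar.Q8b
import Cfsg.Agent.Lib.Defect1.Block
import Cfsg.Agent.Lib.FT.PF6.Basic
import Cfsg.Agent.Lib.FT.PF6.Central

/-!
The isometry from a Frobenius group `L` with kernel `K` to the principal block of `G`, when `K` is
identified with a Sylow subgroup all of whose non-trivial elements have `p`-nilpotent centralizers.
-/

set_option autoImplicit false

open scoped ComplexConjugate Classical

namespace Cfsg.Lib.GSz

open Subgroup Cfsg.Lib.FT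

variable {L G : Type*} [Group L] [Group G]

theorem apply_eq_of_pRel_npc [Finite G] {p : ℕ} [hp : Fact p.Prime] {u : G} {k : ℕ}
    (hu : u ^ p ^ k = 1) (hC : HasNormalPComplement p (centralizer ({u} : Set G)))
    {θ : G → ℂ} (hθ : IsClassFunction G θ) {x : G} (hx : PRel p u x) :
    pb0 p θ x = pb0 p θ u := by
  obtain ⟨w, hw, hc, hx⟩ := hx.exists_conj hu
  rw [(isClassFunction_pb0 hθ).eq_of_isConj hx]
  exact pb0_mul_eq_of_mem_normal hθ hu (pResidual p _) (hasNormalPComplement_iff_not_dvd.1 hC)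
    ⟨⟨w, mem_centralizer_singleton_iff.2 hc.symm.eq⟩,
      mem_pResidual_of_coprime ((Nat.Prime.coprime_iff_not_dvd hp.out).2
        (by rwa [← Subgroup.orderOf_coe])).symm, rfl⟩

/-- the character theoretic setting -/
structure CH (p : ℕ) (K : Subgroup L) (ι : K →* G) : Prop where
  pK : IsPGroup p K
  frob : ∀ h ∈ K, h ≠ 1 → ∀ x : L, x * h = h * x → x ∈ K
  npc : ∀ k : K, k ≠ 1 → HasNormalPComplement p (centralizer ({ι k} : Set G))
  idx : ∀ k : K, k ≠ 1 → (pResidual p (centralizer ({ι k} : Set G))).index =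
    Nat.card (centralizer ({(k : L)} : Set L))
  fus : ∀ k k' : K, IsConj (ι k) (ι k') ↔ IsConj (k : L) (k' : L)

/-- the isometry -/
noncomputable def tau (p : ℕ) [Fact p.Prime] [Fintype L] [Finite G] (K : Subgroup L) (ι : K →* G) :
    (L → ℂ) →ₗ[ℂ] (G → ℂ) where
  toFun α := (Nat.card L : ℂ)⁻¹ • ∑ k : K, α k • pb0 p (clsFun (ι k))
  map_add' α β := by simp only [Pi.add_apply, add_smul, Finset.sum_add_distrib, smul_add]
  map_smul' c α := by
    simp only [Pi.smul_apply, smul_eq_mul, RingHom.id_apply, ← smul_smul, ← Finset.smul_sum]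
    rw [smul_comm]

/-- restriction to `K`, viewed as a function on `L` -/
noncomputable def rho (K : Subgroup L) (ι : K →* G) (χ : G → ℂ) : L → ℂ :=
  extendByZero K (χ ∘ ι)

theorem clsFun_symm (x y : G) : clsFun x y = clsFun y x := by
  by_cases h : IsConj x y
  · rw [← (isClassFunction_clsFun x).eq_of_isConj h, (isClassFunction_clsFun y).eq_of_isConj h,
      clsFun_self, clsFun_self]
    obtain ⟨c, rfl⟩ := isConj_iff.1 h
    congr 1
    refine Nat.card_congr ⟨fun a => ⟨c * a * c⁻¹, ?_⟩, fun a => ⟨c⁻¹ * a * c, ?_⟩, ?_, ?_⟩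
    · have := mem_centralizer_singleton_iff.1 a.2
      rw [mem_centralizer_singleton_iff]
      calc c * a * c⁻¹ * (c * x * c⁻¹) = c * (a * x) * c⁻¹ := by group
        _ = _ := by rw [this]; group
    · have := mem_centralizer_singleton_iff.1 a.2
      rw [mem_centralizer_singleton_iff]
      calc c⁻¹ * a * c * x = c⁻¹ * (a * (c * x * c⁻¹)) * c := by group
        _ = _ := by rw [this]; group
    · intro a; ext; simp [mul_assoc]
    · intro a; ext; simp [mul_assoc]
  · rw [clsFun_of_not_isConj h, clsFun_of_not_isConj (fun h' => h h'.symm)]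

namespace CH

variable {p : ℕ} [hp : Fact p.Prime] {K : Subgroup L} {ι : K →* G} (h : CH p K ι)
include h

omit hp in
theorem pow (k : K) : ∃ n, ι k ^ p ^ n = 1 := by
  obtain ⟨n, hn⟩ := h.pK k
  exact ⟨n, by rw [← map_pow, hn, map_one]⟩

omit hp in
theorem ne_one {k : K} (hk : k ≠ 1) : ι k ≠ 1 := fun e => by
  have := (h.fus k 1).1 (by rw [e, map_one])
  exact hk (Subtype.ext (by simpa using this))

variable [Finite G]

theorem pRel_iff (k k' : K) : PRel p (ι k) (ι k') ↔ IsConj (k : L) (k' : L) := by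
  obtain ⟨a, ha⟩ := h.pow k
  obtain ⟨b, hb⟩ := h.pow k'
  exact ⟨fun e => (h.fus k k').1 (e.isConj ha hb), fun e => PRel.of_isConj ((h.fus k k').2 e)⟩

theorem col {k : K} (hk : k ≠ 1) (g : G) : pb0 p (clsFun (ι k)) g =
    if PRel p (ι k) g then (Nat.card (centralizer ({(k : L)} : Set L)) : ℂ) else 0 := by
  obtain ⟨a, ha⟩ := h.pow k
  rw [pb0_clsFun_eq_ite_of_npc ha (h.npc k hk), h.idx k hk]

theorem col_iota {k : K} (hk : k ≠ 1) (k' : K) :
    pb0 p (clsFun (ι k)) (ι k') = clsFun (k : L) k' := by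
  rw [h.col hk, h.pRel_iff]
  split_ifs with e
  · rw [← (isClassFunction_clsFun (k : L)).eq_of_isConj e, clsFun_self]
  · rw [clsFun_of_not_isConj (fun e' => e e'.symm)]

theorem apply_eq {χ : G → ℂ} (hχ : IsIrrCharacter G χ) (h0 : InB0 p χ) {k : K} (hk : k ≠ 1) {g : G}
    (hg : PRel p (ι k) g) : χ g = χ (ι k) := by
  obtain ⟨a, ha⟩ := h.pow k
  have := apply_eq_of_pRel_npc ha (h.npc k hk) hχ.isClassFunction hg
  rwa [pb0_irr_of_inB0 hχ h0] at this

omit hp [Finite G] in
theorem isClassFunction_rho [K.Normal] {χ : G → ℂ} (hχ : IsClassFunction G χ) :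
    IsClassFunction L (rho K ι χ) := by
  intro a b
  by_cases hb : a ∈ K
  · have hb' : b * a * b⁻¹ ∈ K := Normal.conj_mem inferInstance a hb b
    rw [rho, extendByZero_of_mem _ _ hb, extendByZero_of_mem _ _ hb']
    refine (hχ.eq_of_isConj ((h.fus ⟨a, hb⟩ ⟨_, hb'⟩).2 (isConj_iff.2 ⟨b, rfl⟩))).symm
  · have hb' : b * a * b⁻¹ ∉ K := fun e => hb (by
      simpa [mul_assoc] using Normal.conj_mem inferInstance _ e b⁻¹)
    rw [rho, extendByZero_of_not_mem _ _ hb, extendByZero_of_not_mem _ _ hb']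

end CH

section

variable {p : ℕ} [hp : Fact p.Prime] [Fintype L] [Fintype G] {K : Subgroup L} {ι : K →* G}

theorem isClassFunction_tau (α : L → ℂ) : IsClassFunction G (tau p K ι α) :=
  (isClassFunction_sum _ _ fun k _ => (isClassFunction_pb0 (isClassFunction_clsFun _)).smul _).smul _

theorem inner_tau (α : L → ℂ) {θ : G → ℂ} (hθ : IsClassFunction G θ) :
    classInner (tau p K ι α) θ = classInner α (rho K ι (pb0 p θ)) := by
  change classInner ((Nat.card L : ℂ)⁻¹ • ∑ k : K, α k • pb0 p (clsFun (ι k))) θ = _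
  rw [classInner_smul_left, classInner_sum_left, classInner]
  congr 1
  have : ∀ g, α g * conj (rho K ι (pb0 p θ) g) =
      extendByZero K (fun k => conj (pb0 p θ (ι k))) g * α g := by
    intro g
    by_cases hg : g ∈ K
    · rw [rho, extendByZero_of_mem _ _ hg, extendByZero_of_mem _ _ hg, mul_comm]; rfl
    · rw [rho, extendByZero_of_not_mem _ _ hg, extendByZero_of_not_mem _ _ hg]; simp
  rw [Finset.sum_congr rfl fun g _ => this g, sum_extendByZero_mul]
  refine Finset.sum_congr rfl fun k _ => ?_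
  rw [classInner_smul_left, ← classInner_conj_symm, classInner_pb0_clsFun hθ, mul_comm]

theorem inner_tau_irr (α : L → ℂ) {χ : G → ℂ} (hχ : IsIrrCharacter G χ) :
    classInner (tau p K ι α) χ = if InB0 p χ then classInner α (rho K ι χ) else 0 := by
  rw [inner_tau α hχ.isClassFunction]
  split_ifs with e
  · rw [pb0_irr_of_inB0 hχ e]
  · rw [pb0_irr_of_not_inB0 hχ e]
    have : rho K ι (0 : G → ℂ) = 0 := by
      funext g
      by_cases hg : g ∈ K
      · rw [rho, extendByZero_of_mem _ _ hg]; rfl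
      · rw [rho, extendByZero_of_not_mem _ _ hg]; rfl
    rw [this, classInner_zero_right]

theorem pb0_tau (α : L → ℂ) : pb0 p (tau p K ι α) = tau p K ι α := by
  refine (isClassFunction_pb0 (isClassFunction_tau α)).ext_inner (isClassFunction_tau α)
    fun χ hχ => ?_
  rw [classInner_pb0 (isClassFunction_tau α) hχ]
  split_ifs with e
  · rfl
  · rw [inner_tau_irr α hχ, if_neg e]

namespace CH

variable (h : CH p K ι)
include h

theorem tau_iota {α : L → ℂ} (hα : IsClassFunction L α) (h0 : ∀ x, x ∉ K → α x = 0)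
    (h1 : α 1 = 0) (k : K) : tau p K ι α (ι k) = α k := by
  change ((Nat.card L : ℂ)⁻¹ • ∑ k : K, α k • pb0 p (clsFun (ι k))) (ι k) = _
  rw [Pi.smul_apply, Finset.sum_apply]
  have e1 : ∀ k' : K, (α k' • pb0 p (clsFun (ι k'))) (ι k) = α k' * clsFun (k : L) k' := by
    intro k'
    by_cases e : k' = 1
    · subst e; simp [h1]
    · rw [Pi.smul_apply, h.col_iota e, smul_eq_mul, clsFun_symm]
  rw [Finset.sum_congr rfl fun k' _ => e1 k']
  have e2 := classInner_clsFun (k : L) hα.conj
  rw [classInner] at e2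
  simp only [Complex.conj_conj] at e2
  rw [← e2, smul_eq_mul]
  congr 1
  rw [← sum_extendByZero_mul K (fun k' : K => α k') (clsFun (k : L))]
  refine Finset.sum_congr rfl fun g _ => ?_
  by_cases hg : g ∈ K
  · rw [extendByZero_of_mem _ _ hg, mul_comm]
  · rw [extendByZero_of_not_mem _ _ hg, h0 g hg]; simp

theorem rho_tau {α : L → ℂ} (hα : IsClassFunction L α) (h0 : ∀ x, x ∉ K → α x = 0)
    (h1 : α 1 = 0) : rho K ι (tau p K ι α) = α := by
  funext g
  by_cases hg : g ∈ K
  · rw [rho, extendByZero_of_mem _ _ hg]; exact h.tau_iota hα h0 h1 ⟨g, hg⟩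
  · rw [rho, extendByZero_of_not_mem _ _ hg, h0 g hg]

omit hp [Fintype G] in
theorem inner_ind_rho [K.Normal] (θ : K → ℂ) {χ : G → ℂ} (hχ : IsClassFunction G χ) :
    classInner (indFun K θ) (rho K ι χ) = classInner θ (χ ∘ ι) := by
  rw [classInner_indFun_left K θ (h.isClassFunction_rho hχ)]
  congr 1
  funext k
  rw [rho, extendByZero_coe]

theorem isomOn [K.Normal] : IsomOn (indSet K K ⊥) (tau p K ι) := by
  have hcl : ∀ α ∈ zsp (indSet K K (⊥ : Subgroup L)), IsClassFunction L α := fun α hα =>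
    (gen_of_mem_zsp (fun φ hφ => (indSet_char hφ).isGen) hα).isClassFunction
  have h0 : ∀ α ∈ zsp (indSet K K (⊥ : Subgroup L)), ∀ x, x ∉ K → α x = 0 := fun α hα x hx =>
    zsp_indAll_of_not_mem indSet_subset_indAll hα hx
  refine ⟨fun α _ β hβ _ hβ1 => ?_, fun α hα _ => ?_, fun α hα h1 => ?_⟩
  · rw [inner_tau α (isClassFunction_tau β), pb0_tau, h.rho_tau (hcl β hβ) (h0 β hβ) hβ1]
  · refine isGen_of_inner_int (isClassFunction_tau α) fun χ hχ => ?_
    rw [inner_tau_irr α hχ]
    split_ifs with e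
    · refine Submodule.span_induction (p := fun α _ => ∃ n : ℤ, classInner α (rho K ι χ) = n)
        ?_ ?_ ?_ ?_ hα
      · intro x hx
        obtain ⟨θ, hθ, -, -, rfl⟩ := mem_indSet.1 hx
        rw [h.inner_ind_rho θ hχ.isClassFunction]
        exact hθ.isGen.inner_int (hχ.isGen.comp ι)
      · exact ⟨0, by simp [classInner_zero_left]⟩
      · rintro x y - - ⟨a, ha⟩ ⟨b, hb⟩
        exact ⟨a + b, by rw [classInner_add_left, ha, hb]; simp⟩
      · rintro a x - ⟨b, hb⟩
        exact ⟨a * b, by rw [← Int.cast_smul_eq_zsmul ℂ, classInner_smul_left, hb]; simp⟩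
    · exact ⟨0, by simp⟩
  · have := h.tau_iota (hcl α hα) (h0 α hα) h1 1
    rwa [map_one, OneMemClass.coe_one, h1] at this

end CH

end

end Cfsg.Lib.GSz
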