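import Cfsg.Agent.Lib.Misc.U3Syl
import Cfsg.Agent.Lib.Big.Defs
import Cfsg.Agent.Lib.FT.BG1.Transfer

/-!
In `U₃(2ⁿ)`, `n ≥ 2`, involution centralizers do not have normal `2`-complements.
-/

set_option autoImplicit false

open scoped MatrixGroups

namespace Cfsg.Lib.GSz

open Subgroup Cfsg.Lib.FT Matrix

theorem u3_psu_injective {F : Type*} [Field F] {τ : F ≃+* F} [hτ : Fact (Function.Involutive τ)]
    {q : ℕ} (h2 : (2 : F) = 0) (hq : ∀ x, τ x = x ^ q) : Function.Injective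
      ((QuotientGroup.mk' (Subgroup.center (SU 3 F q))).comp (h9_u3_su h2 hq)) := by
  rw [injective_iff_map_eq_one]
  intro x hx
  have hc := (QuotientGroup.eq_one_iff _).1 hx
  let c : SL(3, F) := ⟨!![0, 0, 1; 1, 0, 0; 0, 1, 0], by simp [Matrix.det_fin_three]⟩
  have hcm : c ∈ SU 3 F q := by
    rw [h9_mem_SU3 hq]
    intro i j
    fin_cases i <;> fin_cases j <;> simp [c]
  have h1 : (c : Matrix (Fin 3) (Fin 3) F) * h9_u3_sl h2 x =
      h9_u3_sl h2 x * (c : Matrix (Fin 3) (Fin 3) F) :=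
    congrArg (fun g => g.1.1) (Subgroup.mem_center_iff.1 hc ⟨c, hcm⟩)
  have h3 := congrFun (congrFun h1 0) 2
  have h4 := congrFun (congrFun h1 0) 0
  simp [c, h9_u3_sl_apply, Matrix.mul_apply, Fin.sum_univ_three] at h3 h4
  exact U3S.ext (by rw [h4, h3]; rfl) h3

theorem psu3_bad {F : Type*} [Field F] [Fintype F] {n : ℕ} (hn : 2 ≤ n)
    (hF : Fintype.card F = (2 ^ n) ^ 2) :
    ∃ t d u : PSU 3 F (2 ^ n), t ≠ 1 ∧ t ^ 2 = 1 ∧ d * t = t * d ∧ u * t = t * u ∧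
      d ^ (2 ^ n + 1) = 1 ∧ d * u * d⁻¹ * u⁻¹ ≠ 1 ∧ (d * u * d⁻¹ * u⁻¹) ^ 4 = 1 := by
  classical
  obtain ⟨h2, τ, hq, hinv, hω, -⟩ := h9_u3_field (F := F) (n := n)
    (by rw [hF, ← pow_mul, mul_comm, pow_mul]; norm_num)
  haveI := Fact.mk hinv
  obtain ⟨g, hg⟩ := IsCyclic.exists_ofOrder_eq_natCard (α := Fˣ)
  have h4 : 4 ≤ 2 ^ n := Nat.pow_le_pow_right (n := 2) (by norm_num) hn
  rw [Nat.card_eq_fintype_card, Fintype.card_units, hF] at hg
  have hg' : orderOf g = (2 ^ n - 1) * (2 ^ n + 1) := by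
    rw [hg, mul_comm, ← Nat.sq_sub_sq, one_pow]
  set l : Fˣ := g ^ (2 ^ n - 1) with hl
  have ho : orderOf l = 2 ^ n + 1 := by
    rw [hl, orderOf_pow_of_dvd (by omega) (hg' ▸ dvd_mul_right _ _), hg',
      Nat.mul_div_cancel_left _ (by omega)]
  have l1 : (l : F) * τ l = 1 := by
    rw [hq, ← pow_succ', ← Units.val_pow_eq_pow_val, ← ho, pow_orderOf_eq_one, Units.val_one]
  have l3 : (l : F) ^ 3 ≠ 1 := fun e => by
    have : l ^ 3 = 1 := Units.ext (by simpa using e)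
    have := Nat.le_of_dvd (by norm_num) (orderOf_dvd_of_pow_eq_one this)
    omega
  let D : Fˣ →* SL(3, F) := MonoidHom.mk' (fun a => ⟨diagonal ![(a : F), a, (a⁻¹ * a⁻¹ : Fˣ)], by
    simp [det_diagonal, Fin.prod_univ_three]; field_simp⟩) (fun a b => by
      apply Subtype.ext
      change diagonal _ = diagonal _ * diagonal _
      rw [diagonal_mul_diagonal]
      congr 1
      funext i
      fin_cases i <;> simp
      ring)
  have hD : ∀ a : Fˣ, (D a : Matrix (Fin 3) (Fin 3) F) =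
      diagonal ![(a : F), a, (a⁻¹ * a⁻¹ : Fˣ)] :=
    fun a => rfl
  have li : ((l⁻¹ : Fˣ) : F) = τ l := by
    rw [Units.val_inv_eq_inv_val]; exact inv_eq_of_mul_eq_one_right l1
  have hDl : (D l : Matrix (Fin 3) (Fin 3) F) =
      !![(l : F), 0, 0; 0, l, 0; 0, 0, τ l * τ l] := by
    rw [hD]
    ext i j
    fin_cases i <;> fin_cases j <;> simp [li, -Units.val_inv_eq_inv_val]
  have hDm : D l ∈ SU 3 F (2 ^ n) := by
    rw [h9_mem_SU3 hq]
    intro i j
    have e : ∀ i j, D l i j = !![(l : F), 0, 0; 0, l, 0; 0, 0, τ l * τ l] i j := fun i j =>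
      congrFun (congrFun hDl i) j
    simp only [e]
    fin_cases i <;> fin_cases j <;> simp [l1, hinv l]
    linear_combination (l * τ l + 1) * l1
  set π := QuotientGroup.mk' (Subgroup.center (SU 3 F (2 ^ n))) with hπ
  set f := π.comp (h9_u3_su h2 hq) with hf
  have hi : Function.Injective f := u3_psu_injective h2 hq
  let m : U3S τ → U3S τ := fun x => ⟨τ l ^ 3 * x.a, x.b, by
    rw [x.h, map_mul, map_pow, hinv l]
    linear_combination -(x.a * τ x.a) * ((l * τ l) ^ 2 + l * τ l + 1) * l1⟩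
  have hm : ∀ x, π ⟨D l, hDm⟩ * f x = f (m x) * π ⟨D l, hDm⟩ := by
    intro x
    rw [hf, MonoidHom.comp_apply, MonoidHom.comp_apply, ← map_mul, ← map_mul]
    congr 1
    apply Subtype.ext
    apply Subtype.ext
    change (D l : Matrix (Fin 3) (Fin 3) F) * h9_u3_sl h2 x = h9_u3_sl h2 (m x) * (D l : Matrix (Fin 3) (Fin 3) F)
    rw [hDl, h9_u3_sl_apply, h9_u3_sl_apply]
    ext i j
    fin_cases i <;> fin_cases j <;> simp [m, Matrix.mul_apply, Fin.sum_univ_three, hinv l, mul_comm]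
    · linear_combination -(l * τ x.a) * (l * τ l + 1) * l1
    · linear_combination -(l * τ x.a) * (l * τ l + 1) * l1
    · linear_combination -(x.a * τ l ^ 2) * l1
    · linear_combination -(x.a * τ l ^ 2) * l1
  obtain ⟨y, hy⟩ := U3S.exists_a hω h2 (1 : F)
  let z : U3S τ := U3S.cen 1 (by rw [map_one]; linear_combination h2)
  have hz : z.a = 0 := rfl
  have hdu : π ⟨D l, hDm⟩ * f y * (π ⟨D l, hDm⟩)⁻¹ * (f y)⁻¹ = f (m y * y⁻¹) := by
    rw [hm, mul_inv_cancel_right, map_mul, map_inv]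
  refine ⟨f z, π ⟨D l, hDm⟩, f y, fun e => ?_, ?_, ?_, ?_, ?_, ?_, ?_⟩
  · have := congrArg U3S.b ((injective_iff_map_eq_one f).1 hi z e)
    exact one_ne_zero this
  · rw [← map_pow, sq, show z * z = 1 from U3S.ext (U3S.sq_a h2 z) (by rw [U3S.sq_b h2, hz]; simp),
      map_one]
  · rw [hm, show m z = z from U3S.ext (by simp [m, hz]) rfl]
  · rw [← map_mul, ← map_mul, mem_center_iff.1 ((U3S.mem_center_iff hω h2 z).2 hz) y]
  · rw [← map_pow, show (⟨D l, hDm⟩ : SU 3 F (2 ^ n)) ^ (2 ^ n + 1) = 1 from Subtype.ext (by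
      rw [coe_pow, ← map_pow, ← ho, pow_orderOf_eq_one, map_one, coe_one]), map_one]
  · rw [hdu]
    intro e
    have := congrArg U3S.a ((injective_iff_map_eq_one f).1 hi _ e)
    simp [m, hy] at this
    apply l3
    linear_combination -(l : F) ^ 3 * this + ((l * τ l) ^ 2 + l * τ l + 1) * l1
  · rw [hdu, ← map_pow, U3S.pow_four h2, map_one]

theorem not_isoPSU3 {G : Type*} [Group G] [Finite G]
    (h : ∀ t : G, t ≠ 1 → t ^ 2 = 1 → HasNormalPComplement 2 C1[t]) {n : ℕ} (hn : 2 ≤ n) :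
    ¬ Big.IsoPSU3 G (2 ^ n) := by
  rintro ⟨F, _, _, hF, ⟨e⟩⟩
  obtain ⟨t, d, u, h1, h2, h3, h4, h5, h6, h7⟩ := psu3_bad hn hF
  obtain ⟨t, rfl⟩ := e.surjective t
  obtain ⟨d, rfl⟩ := e.surjective d
  obtain ⟨u, rfl⟩ := e.surjective u
  simp only [← map_pow, ← map_mul, ← map_inv, ne_eq, MulEquiv.map_eq_one_iff,
    EmbeddingLike.apply_eq_iff_eq] at h1 h2 h3 h4 h5 h6 h7
  haveI := Fact.mk Nat.prime_two
  have hd : d ∈ piCoreOf {2}ᶜ C1[t] := le_piCoreOf_of_hasNormalPComplement (h t h1 h2)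
    (zpowers_le.2 (mem_centralizer_singleton_iff.2 h3)) (by
      rw [Nat.card_zpowers]
      intro c
      have := c.trans (orderOf_dvd_of_pow_eq_one h5)
      have := (Nat.dvd_add_right (dvd_pow_self 2 (by omega))).1 this
      omega) (mem_zpowers d)
  have hc := mul_mem hd ((mem_normalizer_iff.1 (le_normalizer_piCoreOf {2}ᶜ C1[t]
    (mem_centralizer_singleton_iff.2 h4)) _).1 (inv_mem hd))
  refine h6 ((isPiSubgroup_piCoreOf {2}ᶜ C1[t]).eq_one (by simpa [mul_assoc] using hc) ?_)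
  rw [compl_compl]
  exact (PiNat.prime_pow Nat.prime_two (Set.mem_singleton 2) 2).of_dvd (orderOf_dvd_of_pow_eq_one h7)

end Cfsg.Lib.GSz
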